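import Mathlib
import Cfsg.Agent.H562.PQR.GowRoot

/-!
# S3988: the dichotomy for the groups of Lie type (helper934)

* `Par r S` : every odd prime dividing the order of the normalizer of a nontrivial `r`-subgroup is non-minimal;
* `Reg r b S` : an element of order `b` with centralizer of order prime to `r`;
* `rowOdd_of_par` : `Par r S`, `Reg r b S` for two odd primes `b`, multiplier a `2`-group ⟹ `RowOdd S`;
* `dich` : the dichotomy used for the other multipliers.
-/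

set_option autoImplicit false

namespace Cfsg.Agent.H934.PQR

open Cfsg Subgroup Cfsg.Agent.H562.PQR
open Cfsg.Agent.H80.Fpf (MultDvd)

universe v

/-- every odd prime dividing the order of the normalizer of a nontrivial `r`-subgroup is non-minimal -/
def Par (r : ℕ) (S : Type v) [Group S] : Prop :=
  ∀ p : ℕ, p.Prime → p ≠ 2 → ∀ V : Subgroup S, V ≠ ⊥ → IsPGroup r V →
    p ∣ Nat.card ↥(Subgroup.normalizer (V : Set S)) → NotMin p S

/-- an element of order `b` whose centralizer has order prime to `r` -/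
def Reg (r b : ℕ) (S : Type v) [Group S] : Prop :=
  ∃ y : S, orderOf y = b ∧ ¬ r ∣ Nat.card ↥(centralizer ({y} : Set S))

section

variable {S : Type v} [Group S]

theorem notMin_of_par [Finite S] {r p : ℕ} (hr : r.Prime) (hpar : Par r S) (hp : p.Prime) (hp2 : p ≠ 2) {x : S}
    (hx : orderOf x = p) (h : r ∣ Nat.card ↥(centralizer ({x} : Set S))) : NotMin p S := by
  have : Fact r.Prime := ⟨hr⟩
  obtain ⟨⟨u, hu⟩, hur⟩ := exists_prime_orderOf_dvd_card' (G := ↥(centralizer ({x} : Set S))) r h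
  rw [Subgroup.orderOf_mk] at hur
  have hux : u * x = x * u := mem_centralizer_singleton_iff.1 hu
  refine hpar p hp hp2 (zpowers u) ?_ ?_ ?_
  · intro h1
    rw [zpowers_eq_bot] at h1
    rw [h1, orderOf_one] at hur
    exact hr.one_lt.ne hur
  · exact IsPGroup.of_card (n := 1) (by rw [Nat.card_zpowers, hur, pow_one])
  · have h1 : x ∈ Subgroup.normalizer ((zpowers u : Subgroup S) : Set S) := by
      have h2 : x ∈ centralizer ((zpowers u : Subgroup S) : Set S) := by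
        rw [mem_centralizer_iff]
        rintro g ⟨k, rfl⟩
        have h3 : Commute x u := hux.symm
        exact (h3.zpow_right k).symm
      exact centralizer_le_normalizer _ h2
    rw [← hx, ← Subgroup.orderOf_mk x h1]
    exact orderOf_dvd_natCard _

/-- **The dichotomy.** -/
theorem dich [Finite S] {r p : ℕ} (hr : r.Prime) (hpar : Par r S) (hp : p.Prime) (hp2 : p ≠ 2)
    (hd : p ∣ Nat.card S) : NotMin p S ∨ (p ≠ r ∧ ∃ x : S, orderOf x = p ∧ ¬ r ∣ Nat.card ↥(centralizer ({x} : Set S)) ∧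
      ∀ x : S, orderOf x = p → ¬ r ∣ Nat.card ↥(centralizer ({x} : Set S))) := by
  have : Fact p.Prime := ⟨hp⟩
  by_cases h : ∃ x : S, orderOf x = p ∧ r ∣ Nat.card ↥(centralizer ({x} : Set S))
  · obtain ⟨x, hx, h1⟩ := h
    exact Or.inl (notMin_of_par hr hpar hp hp2 hx h1)
  · right
    push Not at h
    obtain ⟨x, hx⟩ := exists_prime_orderOf_dvd_card' p hd
    refine ⟨?_, x, hx, h x hx, h⟩
    rintro rfl
    apply h x hx
    have h1 : x ∈ centralizer ({x} : Set S) := mem_centralizer_singleton_iff.2 rfl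
    have h2 := orderOf_dvd_natCard (⟨x, h1⟩ : ↥(centralizer ({x} : Set S)))
    rwa [Subgroup.orderOf_mk, hx] at h2

/-- a triple `(p, b, 2)` -/
theorem trip_of_reg [Finite S] {r p b : ℕ} (hr : r.Prime) (hS : IsLieTypeChar r S) (hp : p.Prime) (hb : b.Prime)
    (hp2 : p ≠ 2) (hb2 : b ≠ 2) (hpb : p ≠ b) (h2 : 2 ∣ Nat.card S) (hx : Reg r p S) (hy : Reg r b S) {m : ℕ}
    (hm : MultDvd S m) (hm' : ∀ s : ℕ, s.Prime → s ∣ m → s = 2 ∨ s = p ∨ s = b) : Trip p S := by
  obtain ⟨x, hx, hxc⟩ := hx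
  obtain ⟨y, hy, hyc⟩ := hy
  have hx1 := PE.of_orderOf hp hx
  have hy1 := PE.of_orderOf hb hy
  obtain ⟨x', y', z', h3, h4, h5, h6⟩ : ∃ x y z : S, PE p x ∧ PE b y ∧ PE 2 z ∧ x * y * z = 1 := by
    by_cases hr2 : r = 2
    · subst hr2
      exact tri_char hr hS hp hb hpb hx1 hy1 hxc hyc
    · exact tri_reg hr hS Nat.prime_two (fun h => hr2 h.symm) h2 hx1 hy1 hxc hyc
  refine ⟨p, b, 2, Or.inl rfl, Or.inr (Or.inr rfl), TripABC.of_mult hm (fun s hs hsm => ?_) hp hb Nat.prime_two hpb hp2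
    hb2 h3 h4 h5 h6⟩
  rcases hm' s hs hsm with h | h | h
  · exact Or.inl h
  · exact Or.inr (Or.inl h)
  · exact Or.inr (Or.inr (Or.inl h))

/-- **The row**, multiplier a `2`-group. -/
theorem rowOdd_of_par [Finite S] {r : ℕ} (hr : r.Prime) (hS : IsLieTypeChar r S) (hpar : Par r S)
    (h2 : 2 ∣ Nat.card S) {m : ℕ} (hm : MultDvd S m) (hm' : ∀ s : ℕ, s.Prime → s ∣ m → s = 2) {b₁ b₂ : ℕ}
    (hb₁ : b₁.Prime) (hb₂ : b₂.Prime) (hb₁2 : b₁ ≠ 2) (hb₂2 : b₂ ≠ 2) (hne : b₁ ≠ b₂) (h₁ : Reg r b₁ S)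
    (h₂ : Reg r b₂ S) : RowOdd S := by
  intro p hp hp2 hd
  rcases dich hr hpar hp hp2 hd with h | ⟨-, x, hx, hxc, -⟩
  · exact Or.inl h
  right
  by_cases hpb : p = b₁
  · subst hpb
    exact trip_of_reg hr hS hp hb₂ hp2 hb₂2 hne h2 ⟨x, hx, hxc⟩ h₂ hm fun s hs hsm => Or.inl (hm' s hs hsm)
  · exact trip_of_reg hr hS hp hb₁ hp2 hb₁2 hpb h2 ⟨x, hx, hxc⟩ h₁ hm fun s hs hsm => Or.inl (hm' s hs hsm)

end

end Cfsg.Agent.H934.PQR
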