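import Mathlib
import Cfsg.Agent.H934.PQR.General
import Cfsg.Agent.H330.GowCover

/-!
# S3988: triples in the covers of order three (helper934)

* `exists_map` : a cover with kernel of order `3` maps onto the covers whose kernel is a `3`-group, `9 ∤ m`;
* `trip_three` : a triple `(p, b, 2)` lifting to the covers by `3`-groups, from Gow's theorem for covers (helper330).
-/

set_option autoImplicit false

namespace Cfsg.Agent.H934.PQR

open Cfsg Subgroup Cfsg.Agent.H562.PQR Cfsg.Agent.H330.GowCover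
open Cfsg.Agent.H80.Fpf (MultDvd IsCover map_commutator_of_surj perf_commutator)

universe v

/-- a cover of `S` by a group of order `3` maps onto the covers by `3`-groups -/
theorem exists_map {S : Type v} [Group S] [Finite S] {m : ℕ} (hm : MultDvd S m) (h9 : ¬ 9 ∣ m)
    {U : Type} [Group U] [Finite U] {υ : U →* S} (hυ : IsCover υ) (hcard : Nat.card υ.ker = 3)
    {G : Type} [Group G] [Finite G] {π : G →* S} (hπ : IsCover π) (hp : IsPGroup 3 π.ker) :
    ∃ θ : U →* G, Function.Surjective θ ∧ ∀ u, π (θ u) = υ u := by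
  have : Fact (Nat.Prime 3) := ⟨Nat.prime_three⟩
  let P : Subgroup (U × G) := (υ.comp (MonoidHom.fst U G)).eqLocus (π.comp (MonoidHom.snd U G))
  have hP : ∀ p : P, υ (p : U × G).1 = π (p : U × G).2 := fun p => p.2
  let f : P →* S := (υ.comp (MonoidHom.fst U G)).comp P.subtype
  have hfs : Function.Surjective f := by
    intro s
    obtain ⟨u, hu⟩ := hυ.surj s
    obtain ⟨g, hg⟩ := hπ.surj s
    exact ⟨⟨(u, g), hu.trans hg.symm⟩, hu⟩
  have hfc : f.ker ≤ Subgroup.center P := by
    intro z hz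
    have h1 : υ (z : U × G).1 = 1 := hz
    have h2 : π (z : U × G).2 = 1 := by rw [← hP]; exact h1
    have h3 := hυ.central ((MonoidHom.mem_ker).2 h1)
    have h4 := hπ.central ((MonoidHom.mem_ker).2 h2)
    rw [Subgroup.mem_center_iff]
    intro p
    apply Subtype.ext
    exact Prod.ext (Subgroup.mem_center_iff.1 h3 _) (Subgroup.mem_center_iff.1 h4 _)
  have hfp : IsPGroup 3 f.ker := by
    intro z
    have h1 : υ ((z : P) : U × G).1 = 1 := z.2
    have h2 : π ((z : P) : U × G).2 = 1 := by rw [← hP]; exact h1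
    obtain ⟨i, hi⟩ := (IsPGroup.of_card (p := 3) (n := 1) (by rw [hcard, pow_one])) (⟨_, h1⟩ : υ.ker)
    obtain ⟨j, hj⟩ := hp (⟨_, h2⟩ : π.ker)
    refine ⟨i + j, ?_⟩
    have h5 : (((z : P) : U × G).1) ^ 3 ^ i = 1 := congrArg Subtype.val hi
    have h6 : (((z : P) : U × G).2) ^ 3 ^ j = 1 := congrArg Subtype.val hj
    apply Subtype.ext
    apply Subtype.ext
    apply Prod.ext
    · change (((z : P) : U × G).1) ^ 3 ^ (i + j) = 1
      rw [pow_add, pow_mul, h5, one_pow]
    · change (((z : P) : U × G).2) ^ 3 ^ (i + j) = 1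
      rw [add_comm, pow_add, pow_mul, h6, one_pow]
  have hSp : commutator S = ⊤ := by
    rw [← map_commutator_of_surj hυ.surj, hυ.perf, ← MonoidHom.range_eq_map]
    exact MonoidHom.range_eq_top.2 hυ.surj
  obtain ⟨h1, h2⟩ := perf_commutator hfs hfc hSp
  let E := commutator P
  let e : E →* S := f.comp E.subtype
  have hE : IsCover e := by
    refine ⟨?_, ?_, h1⟩
    · intro k
      have h3 : k ∈ (commutator P).map f := by rw [h2]; trivial
      obtain ⟨m, hm, rfl⟩ := h3
      exact ⟨⟨m, hm⟩, rfl⟩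
    · intro z hz
      rw [Subgroup.mem_center_iff]
      intro y
      apply Subtype.ext
      exact Subgroup.mem_center_iff.1 (hfc (show (z : P) ∈ f.ker from hz)) y
  have hEp : IsPGroup 3 e.ker := by
    intro z
    obtain ⟨k, hk⟩ := hfp ⟨((z : E) : P), z.2⟩
    refine ⟨k, ?_⟩
    have h3 : ((z : E) : P) ^ 3 ^ k = 1 := congrArg Subtype.val hk
    apply Subtype.ext
    apply Subtype.ext
    exact h3
  have hEc : Nat.card e.ker ≤ 3 := by
    obtain ⟨k, hk⟩ := IsPGroup.iff_card.1 hEp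
    have h3 := hm E e hE
    rw [hk] at h3 ⊢
    rcases k with _ | _ | k
    · norm_num
    · norm_num
    · exfalso
      apply h9
      exact (Dvd.intro_left (3 ^ k) (by rw [pow_add, pow_add]; ring)).trans h3
  -- projections
  let p₁ : P →* U := (MonoidHom.fst U G).comp P.subtype
  let p₂ : P →* G := (MonoidHom.snd U G).comp P.subtype
  have hp₁ : Function.Surjective p₁ := by
    intro u
    obtain ⟨g, hg⟩ := hπ.surj (υ u)
    exact ⟨⟨(u, g), hg.symm⟩, rfl⟩
  have hp₂ : Function.Surjective p₂ := by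
    intro g
    obtain ⟨u, hu⟩ := hυ.surj (π g)
    exact ⟨⟨(u, g), hu⟩, rfl⟩
  let q₁ : E →* U := p₁.comp E.subtype
  let q₂ : E →* G := p₂.comp E.subtype
  have hq₁ : Function.Surjective q₁ := by
    intro u
    have h3 : u ∈ (commutator P).map p₁ := by rw [map_commutator_of_surj hp₁, hυ.perf]; trivial
    obtain ⟨m, hm, rfl⟩ := h3
    exact ⟨⟨m, hm⟩, rfl⟩
  have hq₂ : Function.Surjective q₂ := by
    intro u
    have h3 : u ∈ (commutator P).map p₂ := by rw [map_commutator_of_surj hp₂, hπ.perf]; trivial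
    obtain ⟨m, hm, rfl⟩ := h3
    exact ⟨⟨m, hm⟩, rfl⟩
  have hcardE : Nat.card E ≤ Nat.card U := by
    have h3 : Nat.card e.ker ≤ Nat.card υ.ker := by rw [hcard]; exact hEc
    have h4 := Subgroup.card_eq_card_quotient_mul_card_subgroup e.ker
    have h5 := Subgroup.card_eq_card_quotient_mul_card_subgroup υ.ker
    rw [Nat.card_congr (QuotientGroup.quotientKerEquivOfSurjective e hE.surj).toEquiv] at h4
    rw [Nat.card_congr (QuotientGroup.quotientKerEquivOfSurjective υ hυ.surj).toEquiv] at h5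
    rw [h4, h5]
    exact Nat.mul_le_mul_left _ h3
  have hbij : Function.Bijective q₁ := by
    have h3 : Nat.card U ≤ Nat.card E := Nat.card_le_card_of_surjective q₁ hq₁
    exact (Nat.bijective_iff_surjective_and_card q₁).2 ⟨hq₁, le_antisymm hcardE h3⟩
  let ε : E ≃* U := MulEquiv.ofBijective q₁ hbij
  refine ⟨q₂.comp ε.symm.toMonoidHom, hq₂.comp ε.symm.surjective, fun u => ?_⟩
  have h3 : q₁ (ε.symm u) = u := ε.apply_symm_apply u
  have h4 : υ (q₁ (ε.symm u)) = π (q₂ (ε.symm u)) := hP (ε.symm u : E)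
  rw [h3] at h4
  exact h4.symm

/-- an element of prime order `t ≠ 3` lifts to one of the same order -/
theorem exists_lift {S : Type v} [Group S] {U : Type} [Group U] [Finite U] {υ : U →* S} (hs : Function.Surjective υ)
    (hcard : Nat.card υ.ker = 3) {t : ℕ} (ht : t.Prime) (ht3 : t ≠ 3) {x : S} (hx : orderOf x = t) :
    ∃ u : U, υ u = x ∧ orderOf u = t := by
  obtain ⟨g, rfl⟩ := hs x
  have h1 : g ^ (t * 3) = 1 := by
    have h2 : g ^ t ∈ υ.ker := by rw [MonoidHom.mem_ker, map_pow, ← hx, pow_orderOf_eq_one]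
    have h3 : (⟨g ^ t, h2⟩ : υ.ker) ^ 3 = 1 := by rw [← hcard]; exact pow_card_eq_one'
    rw [pow_mul]
    exact congrArg Subtype.val h3
  have hcop : Nat.Coprime t 3 := (Nat.coprime_primes ht Nat.prime_three).2 ht3
  obtain ⟨k, hk1, hk2⟩ := Nat.chineseRemainder hcop 1 0
  have h2 : υ (g ^ k) = υ g := by
    rw [map_pow]
    have h3 : υ g ^ k = υ g ^ 1 := pow_eq_pow_iff_modEq.2 (by rw [hx]; exact hk1)
    rw [h3, pow_one]
  refine ⟨g ^ k, h2, ?_⟩
  have h3 : (g ^ k) ^ t = 1 := by
    obtain ⟨j, rfl⟩ := (Nat.modEq_zero_iff_dvd.1 hk2)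
    rw [← pow_mul, show 3 * j * t = t * 3 * j by ring, pow_mul, h1, one_pow]
  rcases (Nat.dvd_prime ht).1 (orderOf_dvd_of_pow_eq_one h3) with h4 | h4
  · exfalso
    rw [orderOf_eq_one_iff] at h4
    rw [h4, map_one] at h2
    rw [← h2, orderOf_one] at hx
    exact ht.one_lt.ne hx
  · exact h4

/-- an element `≠ 1` of the centre of a Sylow `2`-subgroup -/
theorem exists_central_two {U : Type*} [Group U] [Finite U] (h2 : 2 ∣ Nat.card U) :
    ∃ z : U, z ≠ 1 ∧ (∃ k, orderOf z = 2 ^ k) ∧ ¬ 2 ∣ (centralizer ({z} : Set U)).index := by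
  have f2 : Fact (Nat.Prime 2) := ⟨Nat.prime_two⟩
  obtain ⟨P⟩ : Nonempty (Sylow 2 U) := inferInstance
  have hP : (P : Subgroup U) ≠ ⊥ := P.ne_bot_of_dvd_card h2
  have : Nontrivial (P : Subgroup U) := (Subgroup.nontrivial_iff_ne_bot _).2 hP
  have hPp : IsPGroup 2 (P : Subgroup U) := P.isPGroup'
  have : Nontrivial (center (P : Subgroup U)) := hPp.center_nontrivial
  obtain ⟨⟨z, hz⟩, hz1⟩ := exists_ne (1 : center (P : Subgroup U))
  have hz2 : z ≠ 1 := fun h => hz1 (Subtype.ext h)
  refine ⟨(z : U), fun h => hz2 (Subtype.ext h), ?_, fun hd => ?_⟩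
  · obtain ⟨k, hk⟩ := IsPGroup.iff_orderOf.1 hPp z
    exact ⟨k, by rw [Subgroup.orderOf_coe, hk]⟩
  · have h1 : (P : Subgroup U) ≤ centralizer ({(z : U)} : Set U) := by
      intro g hg
      rw [mem_centralizer_singleton_iff]
      exact congrArg Subtype.val (mem_center_iff.1 hz ⟨g, hg⟩)
    have h3 : (centralizer ({(z : U)} : Set U)).index ∣ (P : Subgroup U).index := Subgroup.index_dvd_of_le h1
    exact P.not_dvd_index (hd.trans h3)

/-- **a triple `(p, b, 2)` lifting to the covers by `3`-groups** -/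
theorem trip_three {S : Type v} [Group S] [Finite S] [IsSimpleGroup S] {r p b : ℕ} (hr : r.Prime) (hr3 : r ≠ 3)
    (hS : IsLieTypeChar r S) (hp : p.Prime) (hb : b.Prime) (hp2 : p ≠ 2) (hb2 : b ≠ 2) (hp3 : p ≠ 3) (hb3 : b ≠ 3)
    (hpb : p ≠ b) (h2 : 2 ∣ Nat.card S) (hx : Reg r p S) (hy : Reg r b S) {m : ℕ} (hm0 : m ≠ 0) (h9 : ¬ 9 ∣ m)
    (hm : MultDvd S m) (hm' : ∀ s : ℕ, s.Prime → s ∣ m → s = 2 ∨ s = 3)
    (hT : ∀ (Γ : Type) [Group Γ] [Finite Γ] (π : Γ →* S), IsCover π → Nat.card π.ker = 3 → TorAb r π) : Trip p S := by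
  have : Fact r.Prime := ⟨hr⟩
  have f3 : Fact (Nat.Prime 3) := ⟨Nat.prime_three⟩
  have hL := Cfsg.Agent.H330.Gow.locChar_of_lie (p := r) hS
  obtain ⟨x, hx, hxc⟩ := hx
  obtain ⟨y, hy, hyc⟩ := hy
  have hx1 := PE.of_orderOf hp hx
  have hy1 := PE.of_orderOf hb hy
  have hkc : ∀ (Γ : Type) [Group Γ] [Finite Γ] (π : Γ →* S), IsCover π → IsPGroup 3 π.ker →
      Nat.card π.ker = 1 ∨ Nat.card π.ker = 3 := by
    intro Γ _ _ π hπ h3
    obtain ⟨k, hk⟩ := IsPGroup.iff_card.1 h3
    have h4 := hm Γ π hπ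
    rw [hk] at h4 ⊢
    rcases k with _ | _ | k
    · left; norm_num
    · right; norm_num
    · exfalso
      apply h9
      exact (Dvd.intro_left (3 ^ k) (by rw [pow_add, pow_add]; ring)).trans h4
  -- the triple, with the lifting for `3`
  obtain ⟨x', y', z', h3, h4, h5, h6, h7⟩ : ∃ x y z : S, PE p x ∧ PE b y ∧ PE 2 z ∧ x * y * z = 1 ∧ CLift 3 x y z := by
    by_cases hcov : ∃ (Γ : Type) (_ : Group Γ) (_ : Finite Γ) (π : Γ →* S), IsCover π ∧ Nat.card π.ker = 3
    · obtain ⟨U, _, _, υ, hυ, hcard⟩ := hcov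
      have hk : ¬ r ∣ Nat.card υ.ker := by
        rw [hcard]
        exact fun h => hr3 ((Nat.prime_dvd_prime_iff_eq hr Nat.prime_three).1 h)
      have hTU := hT U υ hυ hcard
      obtain ⟨u, rfl, hu⟩ := exists_lift hυ.surj hcard hp hp3 hx
      obtain ⟨v, rfl, hv⟩ := exists_lift hυ.surj hcard hb hb3 hy
      have huc := not_dvd_cent hk hxc
      have hvc := not_dvd_cent hk hyc
      have hxy : ¬ IsConj u v⁻¹ := by
        intro h
        obtain ⟨c, hc⟩ := isConj_iff.1 h
        have h1 := (MulAut.conj c).orderOf_eq u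
        rw [MulAut.conj_apply, hc, hu, orderOf_inv, hv] at h1
        exact hpb h1.symm
      obtain ⟨z, hz, hzo, g, h, hgh⟩ : ∃ z : U, υ z ≠ 1 ∧ (∃ k, orderOf z = 2 ^ k) ∧
          ∃ g h : U, g * u * g⁻¹ * (h * v * h⁻¹) = z := by
        by_cases hr2 : r = 2
        · subst hr2
          have h2U : 2 ∣ Nat.card U := h2.trans (Subgroup.card_dvd_of_surjective υ hυ.surj)
          obtain ⟨z, hz1, hzo, hzc⟩ := exists_central_two h2U
          refine ⟨z, fun hz => hz1 ?_, hzo, gow_cover_root hυ hk hTU hL huc hvc hxy hzo hz1 hzc⟩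
          obtain ⟨k, hk'⟩ := hzo
          have h5 : z ^ 3 = 1 := by
            have h6 : (⟨z, hz⟩ : υ.ker) ^ 3 = 1 := by rw [← hcard]; exact pow_card_eq_one'
            exact congrArg Subtype.val h6
          have h6 : z ^ 2 ^ k = 1 := by rw [← hk']; exact pow_orderOf_eq_one z
          have h7 := Nat.dvd_gcd (orderOf_dvd_of_pow_eq_one h5) (orderOf_dvd_of_pow_eq_one h6)
          rw [Nat.Coprime.pow_right k (show Nat.Coprime 3 2 by norm_num)] at h7
          exact orderOf_eq_one_iff.1 (Nat.dvd_one.1 h7)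
        · obtain ⟨t, ht⟩ := exists_prime_orderOf_dvd_card' (G := S) 2 h2
          obtain ⟨z, hz, hzo⟩ := exists_lift hυ.surj hcard Nat.prime_two (by norm_num) ht
          have ht1 : t ≠ 1 := by
            rintro rfl
            rw [orderOf_one] at ht
            norm_num at ht
          refine ⟨z, by rw [hz]; exact ht1, ⟨1, by rw [hzo, pow_one]⟩,
            gow_cover_reg hυ hk hTU hL huc hvc (fun hzc => ht1 ?_) (by
              rw [hzo]
              exact fun h => hr2 ((Nat.prime_dvd_prime_iff_eq hr Nat.prime_two).1 h))⟩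
          have hc : center S = ⊥ := by
            rcases (inferInstance : (center S).Normal).eq_bot_or_eq_top with h | h
            · exact h
            · exfalso
              have hSp : commutator S = ⊤ := by
                rw [← map_commutator_of_surj hυ.surj, hυ.perf, ← MonoidHom.range_eq_map]
                exact MonoidHom.range_eq_top.2 hυ.surj
              have h5 : commutator S = ⊥ := by
                rw [commutator_def, Subgroup.commutator_eq_bot_iff_le_centralizer, Subgroup.coe_top, Subgroup.centralizer_univ, h]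
              rw [hSp] at h5
              have h6 : t ∈ (⊥ : Subgroup S) := by rw [← h5]; trivial
              exact ht1 (Subgroup.mem_bot.1 h6)
          have h5 : t ∈ center S := by
            rw [← hz, mem_center_iff]
            intro g
            obtain ⟨g', rfl⟩ := hυ.surj g
            rw [← map_mul, ← map_mul, mem_center_iff.1 hzc]
          rw [hc] at h5
          exact Subgroup.mem_bot.1 h5
      have hz1 : z ≠ 1 := fun h => hz (by rw [h, map_one])
      refine ⟨υ (g * u * g⁻¹), υ (h * v * h⁻¹), υ z⁻¹, ?_, ?_, ?_, ?_, ?_⟩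
      · rw [map_mul, map_mul, map_inv]; exact hx1.conj _
      · rw [map_mul, map_mul, map_inv]; exact hy1.conj _
      · rw [map_inv]
        refine PE.inv ⟨hz, ?_⟩
        obtain ⟨k, hk⟩ := hzo
        obtain ⟨j, -, hj⟩ := (Nat.dvd_prime_pow Nat.prime_two).1 (hk ▸ orderOf_map_dvd υ z)
        exact ⟨j, hj⟩
      · rw [← map_mul, ← map_mul, hgh, mul_inv_cancel, map_one]
      · intro Γ _ _ π hπ h3π
        obtain ⟨θ, -, hθ⟩ := exists_map hm h9 hυ hcard hπ h3π
        have hpe : PE p (g * u * g⁻¹) := (PE.of_orderOf hp hu).conj g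
        have hpv : PE b (h * v * h⁻¹) := (PE.of_orderOf hb hv).conj h
        have hpz : PE 2 z⁻¹ := PE.inv ⟨hz1, hzo⟩
        refine ⟨θ _, θ _, θ _, hθ _, hθ _, hθ _, ?_, ?_, ?_, ?_⟩
        · rw [← map_mul, ← map_mul, hgh, mul_inv_cancel, map_one]
        · exact fun h1 => hpe.not_dvd hp Nat.prime_three (fun h => hp3 h.symm) (h1.trans (orderOf_map_dvd θ _))
        · exact fun h1 => hpv.not_dvd hb Nat.prime_three (fun h => hb3 h.symm) (h1.trans (orderOf_map_dvd θ _))
        · exact fun h1 => hpz.not_dvd Nat.prime_two Nat.prime_three (by norm_num) (h1.trans (orderOf_map_dvd θ _))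
    · obtain ⟨x', y', z', h3, h4, h5, h6⟩ : ∃ x y z : S, PE p x ∧ PE b y ∧ PE 2 z ∧ x * y * z = 1 := by
        by_cases hr2 : r = 2
        · subst hr2
          exact tri_char hr hS hp hb hpb hx1 hy1 hxc hyc
        · exact tri_reg hr hS Nat.prime_two (fun h => hr2 h.symm) h2 hx1 hy1 hxc hyc
      refine ⟨x', y', z', h3, h4, h5, h6, ?_⟩
      intro Γ _ _ π hπ h3π
      have h1 : Nat.card π.ker = 1 := (hkc Γ π hπ h3π).resolve_right fun h => hcov ⟨Γ, inferInstance, inferInstance, π, hπ, h⟩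
      have hinj : Function.Injective π := (MonoidHom.ker_eq_bot_iff π).1 ((Subgroup.card_eq_one).1 h1)
      let e : Γ ≃* S := MulEquiv.ofBijective π ⟨hinj, hπ.surj⟩
      refine ⟨e.symm x', e.symm y', e.symm z', e.apply_symm_apply _, e.apply_symm_apply _, e.apply_symm_apply _, ?_, ?_,
        ?_, ?_⟩
      · rw [← map_mul, ← map_mul, h6, map_one]
      · rw [e.symm.orderOf_eq]; exact h3.not_dvd hp Nat.prime_three (fun h => hp3 h.symm)
      · rw [e.symm.orderOf_eq]; exact h4.not_dvd hb Nat.prime_three (fun h => hb3 h.symm)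
      · rw [e.symm.orderOf_eq]; exact h5.not_dvd Nat.prime_two Nat.prime_three (by norm_num)
  refine ⟨p, b, 2, Or.inl rfl, Or.inr (Or.inr rfl), hp, hb, Nat.prime_two, hpb, hp2, hb2, x', y', z', h3, h4, h5, h6,
    fun s hs hs2 hsp hsb _ _ => ?_⟩
  by_cases hs3 : s = 3
  · rw [hs3]; exact h7
  · refine CLift.of_mult hs hm (fun h => ?_) h6 (h3.not_dvd hp hs hsp) (h4.not_dvd hb hs hsb)
      (h5.not_dvd Nat.prime_two hs hs2)
    rcases hm' s hs h with h | h
    · exact hs2 h
    · exact hs3 h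

end Cfsg.Agent.H934.PQR
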