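import Mathlib
import Cfsg.Agent.H934.PQR.General
import Cfsg.Agent.H129.CycCard
import Cfsg.Agent.H129.RealE7
import Cfsg.Agent.S1062
import Cfsg.Agent.S1064
import Cfsg.Agent.S1065
import Cfsg.Agent.S2103
import Cfsg.Agent.S2104
import Cfsg.Agent.S2106
import Cfsg.Agent.S2107

/-!
# S3988: the rows `F₄(q)`, `E₇(q)`, `E₈(q)` (helper934), from the parabolic lemma `Par`
-/

set_option autoImplicit false

namespace Cfsg.Agent.H934.PQR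

open Cfsg Cfsg.Lie Subgroup Cfsg.Agent.H562.PQR Cfsg.Agent.H129.CycCard
open Cfsg.Agent.H80.Fpf (MultDvd)

universe v

theorem reg_of_cycCard {S : Type v} [Group S] [Finite S] {r b m d : ℕ} (hb : b.Prime) (h : CycCard S b m d)
    (hm : ¬ r ∣ m) : Reg r b S := by
  have : Fact b.Prime := ⟨hb⟩
  obtain ⟨T, -, h2, -, h4, h5⟩ := h
  obtain ⟨⟨y, hy⟩, hyb⟩ := exists_prime_orderOf_dvd_card' (G := ↥T) b h4
  rw [Subgroup.orderOf_mk] at hyb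
  exact ⟨y, hyb, fun h6 => hm ((h6.trans (Subgroup.card_dvd_of_le (h5 y hy hyb))).trans h2)⟩

theorem dvd_q {F : Type} [Field F] [Fintype F] {r q : ℕ} [CharP F r] (hq : Fintype.card F = q) : r ∣ q := by
  rw [← CharP.cast_eq_zero_iff F r, ← hq]
  exact FiniteField.cast_card_eq_zero F

/-- a value `≡ ±1` modulo `q` is prime to `r ∣ q` -/
theorem not_dvd_of {r q m : ℕ} (hr : r.Prime) (hrq : r ∣ q) {a c : ℤ} (hc : c = 1 ∨ c = -1) (h : (m : ℤ) = c + q * a) :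
    ¬ r ∣ m := by
  intro hm
  have h1 : (r : ℤ) ∣ (m : ℤ) := Int.natCast_dvd_natCast.2 hm
  have h2 : (r : ℤ) ∣ (q : ℤ) := Int.natCast_dvd_natCast.2 hrq
  have h3 : (r : ℤ) ∣ c := by
    have h4 : c = m - q * a := by rw [h]; ring
    rw [h4]
    exact dvd_sub h1 (h2.mul_right a)
  have h3' : (r : ℤ) ∣ ((1 : ℕ) : ℤ) := by
    rcases hc with rfl | rfl
    · simpa using h3
    · have := (dvd_neg (a := (r : ℤ)) (b := -1)).2 h3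
      simpa using this
  have h5 := Int.natCast_dvd_natCast.1 h3'
  exact hr.one_lt.ne' (Nat.dvd_one.1 h5)

/-- an odd prime divisor of an odd integer `> 1` -/
theorem exists_odd_prime {m : ℕ} (h1 : m ≠ 1) (h2 : ¬ 2 ∣ m) : ∃ b : ℕ, b.Prime ∧ b ∣ m ∧ b ≠ 2 := by
  obtain ⟨b, hb, hbm⟩ := Nat.exists_prime_and_dvd h1
  refine ⟨b, hb, hbm, ?_⟩
  rintro rfl
  exact h2 hbm

/-- an odd prime divisor of an integer `> 2` not divisible by `4` -/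
theorem exists_odd_prime' {m : ℕ} (h1 : 2 < m) (h2 : ¬ 4 ∣ m) : ∃ b : ℕ, b.Prime ∧ b ∣ m ∧ b ≠ 2 := by
  rcases Nat.eq_two_pow_or_exists_odd_prime_and_dvd m with ⟨k, hk⟩ | ⟨b, hb, hbm, hbo⟩
  · exfalso
    rcases Nat.lt_or_ge k 2 with h3 | h3
    · have h4 : (2 : ℕ) ^ k ≤ 2 ^ 1 := Nat.pow_le_pow_right (by norm_num) (by omega)
      omega
    · apply h2
      rw [hk]
      exact pow_dvd_pow 2 h3
  · refine ⟨b, hb, hbm, ?_⟩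
    rintro rfl
    exact absurd hbo (by decide)

theorem ne_of_bez {b₁ b₂ : ℕ} (hb : b₁.Prime) {x y u v : ℤ} (h1 : (b₁ : ℤ) ∣ x) (h2 : (b₂ : ℤ) ∣ y)
    (h : u * x + v * y = 1) : b₁ ≠ b₂ := by
  rintro rfl
  have h3 : (b₁ : ℤ) ∣ 1 := by
    rw [← h]
    exact dvd_add (h1.mul_left u) (h2.mul_left v)
  have h5 := Int.natCast_dvd_natCast.1 (by simpa using h3 : (b₁ : ℤ) ∣ ((1 : ℕ) : ℤ))
  exact hb.one_lt.ne' (Nat.dvd_one.1 h5)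

theorem exists_nat {z : ℤ} (h : 2 ≤ z) : ∃ m : ℕ, (m : ℤ) = z ∧ m ≠ 1 := by
  refine ⟨z.toNat, Int.toNat_of_nonneg (by omega), ?_⟩
  intro h1
  have := Int.toNat_of_nonneg (by omega : 0 ≤ z)
  rw [h1] at this
  norm_num at this
  omega

theorem two_dvd_sq (q : ℕ) (hq : 2 ≤ q) : 2 ∣ q * (q ^ 2 - 1) := by
  rcases Nat.even_or_odd q with h | h
  · exact (h.two_dvd).mul_right _
  · refine Dvd.dvd.mul_left ?_ _
    have h1 : Odd (q ^ 2) := h.pow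
    obtain ⟨k, hk⟩ := h1
    rw [hk]
    exact ⟨k, by omega⟩

/-- the exceptional Chevalley groups are of Lie type -/
theorem lieType_F4 {F : Type} [Field F] [Fintype F] (p : ℕ) [hpc : CharP F p] : IsLieTypeChar p ↥(chevF4.group F) := by
  refine Or.inr (Or.inr (Or.inr (Or.inr (Or.inr (Or.inr (Or.inl ⟨F, inferInstance, inferInstance, hpc, ?_⟩))))))
  exact Or.inr (Or.inl ⟨MulEquiv.refl _⟩)

theorem lieType_E6 {F : Type} [Field F] [Fintype F] (p : ℕ) [hpc : CharP F p] : IsLieTypeChar p ↥(chevE6.group F) := by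
  refine Or.inr (Or.inr (Or.inr (Or.inr (Or.inr (Or.inr (Or.inl ⟨F, inferInstance, inferInstance, hpc, ?_⟩))))))
  exact Or.inr (Or.inr (Or.inl ⟨MulEquiv.refl _⟩))

theorem lieType_E7 {F : Type} [Field F] [Fintype F] (p : ℕ) [hpc : CharP F p] : IsLieTypeChar p ↥(chevE7.group F) := by
  refine Or.inr (Or.inr (Or.inr (Or.inr (Or.inr (Or.inr (Or.inl ⟨F, inferInstance, inferInstance, hpc, ?_⟩))))))
  exact Or.inr (Or.inr (Or.inr (Or.inl ⟨MulEquiv.refl _⟩)))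

theorem lieType_E8 {F : Type} [Field F] [Fintype F] (p : ℕ) [hpc : CharP F p] : IsLieTypeChar p ↥(chevE8.group F) := by
  refine Or.inr (Or.inr (Or.inr (Or.inr (Or.inr (Or.inr (Or.inl ⟨F, inferInstance, inferInstance, hpc, ?_⟩))))))
  exact Or.inr (Or.inr (Or.inr (Or.inr ⟨MulEquiv.refl _⟩)))

/-! ### `E₈` -/

theorem e8 {F : Type} [Field F] [Fintype F] {r : ℕ} [CharP F r] (hpar : Par r ↥(chevE8.group F)) :
    RowOdd ↥(chevE8.group F) := by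
  have hr : r.Prime := CharP.char_is_prime F r
  obtain ⟨q, hq⟩ : ∃ q, Fintype.card F = q := ⟨_, rfl⟩
  have hq2 : 2 ≤ q := by rw [← hq]; exact Fintype.one_lt_card
  have hrq : r ∣ q := dvd_q hq
  have hqz : (2 : ℤ) ≤ q := by exact_mod_cast hq2
  have k4 : (q : ℤ) ≤ (q : ℤ) ^ 2 := by nlinarith
  obtain ⟨m₁, hm₁, h₁⟩ := exists_nat (z := 1 + (q : ℤ) - (q : ℤ) ^ 3 - (q : ℤ) ^ 4 - (q : ℤ) ^ 5 + (q : ℤ) ^ 7 +
      (q : ℤ) ^ 8) (by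
    have h1 : (0 : ℤ) ≤ (q : ℤ) ^ 3 * ((q : ℤ) ^ 5 - 1 - (q : ℤ) - (q : ℤ) ^ 2) := by
      apply mul_nonneg (by positivity)
      have : (q : ℤ) ^ 5 = (q : ℤ) ^ 2 * (q : ℤ) ^ 3 := by ring
      nlinarith [pow_le_pow_left₀ (by norm_num : (0 : ℤ) ≤ 2) hqz 3]
    have h2 : (0 : ℤ) ≤ (q : ℤ) ^ 7 := by positivity
    nlinarith)
  obtain ⟨m₂, hm₂, h₂⟩ := exists_nat (z := 1 - (q : ℤ) ^ 4 + (q : ℤ) ^ 8) (by
    have h1 : (16 : ℤ) ≤ (q : ℤ) ^ 4 := by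
      have := pow_le_pow_left₀ (by norm_num : (0 : ℤ) ≤ 2) hqz 4
      norm_num at this
      exact this
    nlinarith)
  obtain ⟨b₁, hb₁, hb₁m, hb₁2⟩ := exists_odd_prime h₁ (by
    intro h
    have h1 := zmod_of (r := 2) (z := (m₁ : ℤ)) (Int.natCast_dvd_natCast.2 h)
    rw [hm₁] at h1
    push_cast at h1
    generalize (q : ZMod 2) = x at h1; revert h1; revert x; decide)
  obtain ⟨b₂, hb₂, hb₂m, hb₂2⟩ := exists_odd_prime h₂ (by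
    intro h
    have h1 := zmod_of (r := 2) (z := (m₂ : ℤ)) (Int.natCast_dvd_natCast.2 h)
    rw [hm₂] at h1
    push_cast at h1
    generalize (q : ZMod 2) = x at h1; revert h1; revert x; decide)
  have d₁ : (b₁ : ℤ) ∣ 1 + (q : ℤ) - (q : ℤ) ^ 3 - (q : ℤ) ^ 4 - (q : ℤ) ^ 5 + (q : ℤ) ^ 7 + (q : ℤ) ^ 8 := by
    rw [← hm₁]; exact Int.natCast_dvd_natCast.2 hb₁m
  have d₂ : (b₂ : ℤ) ∣ 1 - (q : ℤ) ^ 4 + (q : ℤ) ^ 8 := by rw [← hm₂]; exact Int.natCast_dvd_natCast.2 hb₂m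
  have hm := Cfsg.Agent.H80.Fpf.multDvd_of_cyclic one_ne_zero (Cfsg.Agent.S2107.result (F := F))
  refine rowOdd_of_par hr (lieType_E8 r) hpar ?_ hm (fun s hs h => absurd (Nat.dvd_one.1 h) hs.one_lt.ne') hb₁ hb₂ hb₁2 hb₂2
    (ne_of_bez hb₁ (u := - (q : ℤ) + (q : ℤ) ^ 5 + (q : ℤ) ^ 7)
      (v := 1 + (q : ℤ) + (q : ℤ) ^ 2 - (q : ℤ) ^ 5 - (q : ℤ) ^ 6 - (q : ℤ) ^ 7) d₁ d₂ (by ring))
    (reg_of_cycCard hb₁ (card_E8_30 hq hm₁ hb₁ d₁)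
      (not_dvd_of hr hrq (Or.inl rfl) (a := 1 - (q : ℤ) ^ 2 - (q : ℤ) ^ 3 - (q : ℤ) ^ 4 + (q : ℤ) ^ 6 + (q : ℤ) ^ 7) (by rw [hm₁]; ring)))
    (reg_of_cycCard hb₂ (card_E8_24 hq hm₂ hb₂ d₂)
      (not_dvd_of hr hrq (Or.inl rfl) (a := - (q : ℤ) ^ 3 + (q : ℤ) ^ 7) (by rw [hm₂]; ring)))
  rw [Cfsg.Agent.S1065.result hq]
  refine (two_dvd_sq q hq2).trans ⟨q ^ 119 * ((q ^ 8 - 1) * (q ^ 12 - 1) * (q ^ 14 - 1) * (q ^ 18 - 1) * (q ^ 20 - 1) *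
    (q ^ 24 - 1) * (q ^ 30 - 1)), ?_⟩
  ring

/-! ### `F₄` -/

theorem f4 {F : Type} [Field F] [Fintype F] {r : ℕ} [CharP F r] (hpar : Par r ↥(chevF4.group F)) :
    RowOdd ↥(chevF4.group F) := by
  have hr : r.Prime := CharP.char_is_prime F r
  obtain ⟨q, hq⟩ : ∃ q, Fintype.card F = q := ⟨_, rfl⟩
  have hq2 : 2 ≤ q := by rw [← hq]; exact Fintype.one_lt_card
  have hrq : r ∣ q := dvd_q hq
  have hqz : (2 : ℤ) ≤ q := by exact_mod_cast hq2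
  obtain ⟨m₁, hm₁, h₁⟩ := exists_nat (z := 1 - (q : ℤ) ^ 2 + (q : ℤ) ^ 4) (by
    have h1 : (4 : ℤ) ≤ (q : ℤ) ^ 2 := by nlinarith
    nlinarith)
  have hm₂ : ((q ^ 4 + 1 : ℕ) : ℤ) = 1 + (q : ℤ) ^ 4 := by push_cast; ring
  obtain ⟨b₁, hb₁, hb₁m, hb₁2⟩ := exists_odd_prime h₁ (by
    intro h
    have h1 := zmod_of (r := 2) (z := (m₁ : ℤ)) (Int.natCast_dvd_natCast.2 h)
    rw [hm₁] at h1
    push_cast at h1
    generalize (q : ZMod 2) = x at h1; revert h1; revert x; decide)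
  obtain ⟨b₂, hb₂, hb₂m, hb₂2⟩ := exists_odd_prime' (m := q ^ 4 + 1)
    (by have := Nat.pow_le_pow_left hq2 4; omega) (by
    intro h
    have h1 := (ZMod.natCast_eq_zero_iff _ _).2 h
    push_cast at h1
    generalize (q : ZMod 4) = x at h1; revert h1; revert x; decide)
  have d₁ : (b₁ : ℤ) ∣ 1 - (q : ℤ) ^ 2 + (q : ℤ) ^ 4 := by rw [← hm₁]; exact Int.natCast_dvd_natCast.2 hb₁m
  have d₂ : (b₂ : ℤ) ∣ 1 + (q : ℤ) ^ 4 := by rw [← hm₂]; exact Int.natCast_dvd_natCast.2 hb₂m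
  obtain ⟨m, hm, hm'⟩ : ∃ m : ℕ, MultDvd ↥(chevF4.group F) m ∧ ∀ s : ℕ, s.Prime → s ∣ m → s = 2 := by
    by_cases h2 : Fintype.card F = 2
    · exact ⟨2, Cfsg.Agent.H80.Fpf.multDvd_of_cyclic two_ne_zero (Cfsg.Agent.S2104.result h2),
        fun s hs h => (Nat.prime_dvd_prime_iff_eq hs Nat.prime_two).1 h⟩
    · exact ⟨1, Cfsg.Agent.H80.Fpf.multDvd_of_cyclic one_ne_zero (Cfsg.Agent.S2103.result (by omega)),
        fun s hs h => absurd (Nat.dvd_one.1 h) hs.one_lt.ne'⟩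
  refine rowOdd_of_par hr (lieType_F4 r) hpar ?_ hm hm' hb₁ hb₂ hb₁2 hb₂2
    (ne_of_bez hb₁ (u := (q : ℤ) ^ 2) (v := 1 - (q : ℤ) ^ 2) d₁ d₂ (by ring))
    (reg_of_cycCard hb₁ (card_F4_12 hq hm₁ hb₁ d₁)
      (not_dvd_of hr hrq (Or.inl rfl) (a := - (q : ℤ) + (q : ℤ) ^ 3) (by rw [hm₁]; ring)))
    (reg_of_cycCard hb₂ (card_F4_8 hq hm₂ hb₂ d₂ hb₂2)
      (not_dvd_of hr hrq (Or.inl rfl) (a := (q : ℤ) ^ 3) (by rw [hm₂]; ring)))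
  rw [Cfsg.Agent.S1062.result hq]
  refine (two_dvd_sq q hq2).trans ⟨q ^ 23 * ((q ^ 6 - 1) * (q ^ 8 - 1) * (q ^ 12 - 1)), ?_⟩
  ring

/-! ### `E₇` -/

theorem even_E7 {F : Type} [Field F] [Fintype F] : 2 ∣ Nat.card ↥(chevE7.group F) := by
  obtain ⟨q, hq⟩ : ∃ q, Fintype.card F = q := ⟨_, rfl⟩
  have hq2 : 2 ≤ q := by rw [← hq]; exact Fintype.one_lt_card
  have h1 := Cfsg.Agent.S1064.result hq
  have h4 : 4 ∣ Nat.gcd 2 (q - 1) * Nat.card ↥(chevE7.group F) := by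
    rw [h1]
    have e : q ^ 63 * (q ^ 2 - 1) * (q ^ 6 - 1) * (q ^ 8 - 1) * (q ^ 10 - 1) * (q ^ 12 - 1) * (q ^ 14 - 1) *
        (q ^ 18 - 1) = (q * (q ^ 2 - 1)) * (q * (q ^ 6 - 1)) * (q ^ 61 * ((q ^ 8 - 1) * (q ^ 10 - 1) * (q ^ 12 - 1) *
        (q ^ 14 - 1) * (q ^ 18 - 1))) := by ring
    rw [e]
    refine Dvd.dvd.mul_right ?_ _
    have h5 : 2 ∣ q * (q ^ 6 - 1) := by
      rcases Nat.even_or_odd q with h | h
      · exact (h.two_dvd).mul_right _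
      · refine Dvd.dvd.mul_left ?_ _
        obtain ⟨k, hk⟩ : Odd (q ^ 6) := h.pow
        rw [hk]
        exact ⟨k, by omega⟩
    exact mul_dvd_mul (two_dvd_sq q hq2) h5
  rcases (Nat.dvd_prime Nat.prime_two).1 (Nat.gcd_dvd_left 2 (q - 1)) with h | h
  · rw [h, one_mul] at h4
    exact (by norm_num : 2 ∣ 4).trans h4
  · rw [h] at h4
    exact Nat.dvd_of_mul_dvd_mul_left (by norm_num : 0 < 2) (by simpa using h4)

theorem e7 {F : Type} [Field F] [Fintype F] {r : ℕ} [CharP F r] (hpar : Par r ↥(chevE7.group F)) :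
    RowOdd ↥(chevE7.group F) := by
  have hr : r.Prime := CharP.char_is_prime F r
  obtain ⟨q, hq⟩ : ∃ q, Fintype.card F = q := ⟨_, rfl⟩
  have hq2 : 2 ≤ q := by rw [← hq]; exact Fintype.one_lt_card
  have hrq : r ∣ q := dvd_q hq
  have hqz : (2 : ℤ) ≤ q := by exact_mod_cast hq2
  obtain ⟨b₁, hb₁, -, d₁, hb₁2, hb₁3, -⟩ := Cfsg.Agent.H129.RealT.exists_prime9 hq2
  obtain ⟨b₂, hb₂, -, d₂, hb₂2, hb₂3, -⟩ := Cfsg.Agent.H129.RealT.exists_prime18 hq2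
  obtain ⟨m₁, hm₁, -⟩ := exists_nat (z := (1 + (q : ℤ) ^ 3 + (q : ℤ) ^ 6) * ((q : ℤ) - 1)) (by
    have h1 : (0 : ℤ) ≤ (q : ℤ) ^ 3 := by positivity
    have h2 : (q : ℤ) ^ 3 = (q : ℤ) * (q : ℤ) ^ 2 := by ring
    have h3 : (1 : ℤ) ≤ (q : ℤ) ^ 3 := one_le_pow₀ (by omega)
    have h4 : (1 : ℤ) ≤ (q : ℤ) ^ 6 := one_le_pow₀ (by omega)
    nlinarith)
  obtain ⟨m₂, hm₂, -⟩ := exists_nat (z := (1 - (q : ℤ) ^ 3 + (q : ℤ) ^ 6) * ((q : ℤ) + 1)) (by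
    have h3 : (1 : ℤ) ≤ (q : ℤ) ^ 3 := one_le_pow₀ (by omega)
    have h4 : (q : ℤ) ^ 6 = (q : ℤ) ^ 3 * (q : ℤ) ^ 3 := by ring
    nlinarith)
  have hm := Cfsg.Agent.H80.Fpf.multDvd_of_cyclic (Nat.gcd_pos_of_pos_left _ (by norm_num)).ne'
    (Cfsg.Agent.S2106.result hq)
  refine rowOdd_of_par hr (lieType_E7 r) hpar even_E7 hm (fun s hs h =>
      (Nat.prime_dvd_prime_iff_eq hs Nat.prime_two).1 (h.trans (Nat.gcd_dvd_left _ _))) hb₁ hb₂ hb₁2 hb₂2 ?_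
    (reg_of_cycCard hb₁ (card_E7_9 hq hm₁ hb₁ d₁ hb₁3)
      (not_dvd_of hr hrq (Or.inr rfl) (a := 1 - (q : ℤ) ^ 2 + (q : ℤ) ^ 3 - (q : ℤ) ^ 5 + (q : ℤ) ^ 6) (by rw [hm₁]; ring)))
    (reg_of_cycCard hb₂ (card_E7_18 hq hm₂ hb₂ d₂ hb₂3)
      (not_dvd_of hr hrq (Or.inl rfl) (a := 1 - (q : ℤ) ^ 2 - (q : ℤ) ^ 3 + (q : ℤ) ^ 5 + (q : ℤ) ^ 6) (by rw [hm₂]; ring)))
  rintro rfl
  have h3 : (b₁ : ℤ) ∣ ((2 : ℕ) : ℤ) := by
    have h4 : ((2 : ℕ) : ℤ) = (1 - (q : ℤ) ^ 3) * (1 + (q : ℤ) ^ 3 + (q : ℤ) ^ 6) +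
        (1 + (q : ℤ) ^ 3) * (1 - (q : ℤ) ^ 3 + (q : ℤ) ^ 6) := by push_cast; ring
    rw [h4]
    exact dvd_add (d₁.mul_left _) (d₂.mul_left _)
  exact hb₁2 ((Nat.prime_dvd_prime_iff_eq hb₁ Nat.prime_two).1 (Int.natCast_dvd_natCast.1 h3))

/-! ### the rows, from `Par` for the explicit groups -/

theorem row_E8_of (hpar : ∀ (F : Type) [Field F] [Fintype F] (r : ℕ) [CharP F r], Par r ↥(chevE8.group F))
    {S : Type v} [Group S] (h : IsoE8 S) : RowOdd S := by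
  obtain ⟨F, _, _, ⟨e⟩⟩ := h
  obtain ⟨r, _⟩ := CharP.exists F
  exact (e8 (hpar F r)).congr e.symm

theorem row_E7_of (hpar : ∀ (F : Type) [Field F] [Fintype F] (r : ℕ) [CharP F r], Par r ↥(chevE7.group F))
    {S : Type v} [Group S] (h : IsoE7 S) : RowOdd S := by
  obtain ⟨F, _, _, ⟨e⟩⟩ := h
  obtain ⟨r, _⟩ := CharP.exists F
  exact (e7 (hpar F r)).congr e.symm

theorem row_F4_of (hpar : ∀ (F : Type) [Field F] [Fintype F] (r : ℕ) [CharP F r], Par r ↥(chevF4.group F))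
    {S : Type v} [Group S] (h : IsoF4 S) : RowOdd S := by
  obtain ⟨F, _, _, ⟨e⟩⟩ := h
  obtain ⟨r, _⟩ := CharP.exists F
  exact (f4 (hpar F r)).congr e.symm

end Cfsg.Agent.H934.PQR
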