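import Mathlib
import Cfsg.Agent.H934.PQR.Rows
import Cfsg.Agent.S1063
import Cfsg.Agent.S1066
import Cfsg.Agent.S2105
import Cfsg.Agent.S2108
import Cfsg.Agent.S2109

/-!
# S3988: the rows `E₆(q)`, `²E₆(q)` (helper934), from the parabolic lemma `Par` and, if `3` divides the order of the
multiplier, triples for the primes `p ≠ 3` with all elements of order `p` regular.
-/

set_option autoImplicit false

namespace Cfsg.Agent.H934.PQR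

open Cfsg Cfsg.Lie Subgroup Cfsg.Agent.H562.PQR Cfsg.Agent.H129.CycCard
open Cfsg.Agent.H80.Fpf (MultDvd)

universe v

/-- **The row**, the odd primes dividing the order of the multiplier being `3` only. -/
theorem rowOdd_of_par3 {S : Type v} [Group S] [Finite S] {r : ℕ} (hr : r.Prime) (hS : IsLieTypeChar r S)
    (hpar : Par r S) (h2 : 2 ∣ Nat.card S) {m : ℕ} (hm : MultDvd S m)
    (hm' : ∀ s : ℕ, s.Prime → s ∣ m → s = 2 ∨ s = 3) {b₁ b₂ : ℕ}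
    (hb₁ : b₁.Prime) (hb₂ : b₂.Prime) (hb₁2 : b₁ ≠ 2) (hb₂2 : b₂ ≠ 2) (hne : b₁ ≠ b₂) (h₁ : Reg r b₁ S)
    (h₂ : Reg r b₂ S) (hX : 3 ∣ m → ∀ p : ℕ, p.Prime → p ≠ 2 → p ≠ 3 → p ≠ r → Reg r p S → Trip p S) : RowOdd S := by
  intro p hp hp2 hd
  rcases dich hr hpar hp hp2 hd with h | ⟨hpr, x, hx, hxc, -⟩
  · exact Or.inl h
  right
  by_cases h3 : 3 ∣ m ∧ p ≠ 3
  · exact hX h3.1 p hp hp2 h3.2 hpr ⟨x, hx, hxc⟩
  have key : ∀ s : ℕ, s.Prime → s ∣ m → s = 2 ∨ s = p := by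
    intro s hs hsm
    rcases hm' s hs hsm with h | h
    · exact Or.inl h
    · subst h
      right
      by_contra h4
      exact h3 ⟨hsm, fun h5 => h4 h5.symm⟩
  by_cases hpb : p = b₁
  · subst hpb
    exact trip_of_reg hr hS hp hb₂ hp2 hb₂2 hne h2 ⟨x, hx, hxc⟩ h₂ hm fun s hs hsm => by
      rcases key s hs hsm with h | h
      · exact Or.inl h
      · exact Or.inr (Or.inl h)
  · exact trip_of_reg hr hS hp hb₁ hp2 hb₁2 hpb h2 ⟨x, hx, hxc⟩ h₁ hm fun s hs hsm => by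
      rcases key s hs hsm with h | h
      · exact Or.inl h
      · exact Or.inr (Or.inl h)

/-! ### `E₆` -/

theorem even_E6 {F : Type} [Field F] [Fintype F] : 2 ∣ Nat.card ↥(chevE6.group F) := by
  obtain ⟨q, hq⟩ : ∃ q, Fintype.card F = q := ⟨_, rfl⟩
  have hq2 : 2 ≤ q := by rw [← hq]; exact Fintype.one_lt_card
  have h1 := Cfsg.Agent.S1063.result hq
  have h4 : 2 ∣ Nat.gcd 3 (q - 1) * Nat.card ↥(chevE6.group F) := by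
    rw [h1]
    refine (two_dvd_sq q hq2).trans ⟨q ^ 35 * ((q ^ 5 - 1) * (q ^ 6 - 1) * (q ^ 8 - 1) * (q ^ 9 - 1) * (q ^ 12 - 1)), ?_⟩
    ring
  refine (Nat.Prime.dvd_mul Nat.prime_two).1 h4 |>.resolve_left fun h => ?_
  have h5 := h.trans (Nat.gcd_dvd_left 3 (q - 1))
  norm_num at h5

/-- the two regular primes of `E₆(q)` -/
theorem reg_E6 {F : Type} [Field F] [Fintype F] {r : ℕ} [CharP F r] : ∃ b₁ b₂ : ℕ, b₁.Prime ∧ b₂.Prime ∧ b₁ ≠ 2 ∧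
    b₂ ≠ 2 ∧ b₁ ≠ b₂ ∧ Reg r b₁ ↥(chevE6.group F) ∧ Reg r b₂ ↥(chevE6.group F) := by
  have hr : r.Prime := CharP.char_is_prime F r
  obtain ⟨q, hq⟩ : ∃ q, Fintype.card F = q := ⟨_, rfl⟩
  have hq2 : 2 ≤ q := by rw [← hq]; exact Fintype.one_lt_card
  have hrq : r ∣ q := dvd_q hq
  have hqz : (2 : ℤ) ≤ q := by exact_mod_cast hq2
  obtain ⟨b₁, hb₁, -, d₁, hb₁2, hb₁3, -⟩ := Cfsg.Agent.H129.RealT.exists_prime9 hq2
  obtain ⟨n₂, hn₂, h₂⟩ := exists_nat (z := 1 - (q : ℤ) ^ 2 + (q : ℤ) ^ 4) (by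
    have h1 : (4 : ℤ) ≤ (q : ℤ) ^ 2 := by nlinarith
    nlinarith)
  obtain ⟨b₂, hb₂, hb₂m, hb₂2⟩ := exists_odd_prime h₂ (by
    intro h
    have h1 := zmod_of (r := 2) (z := (n₂ : ℤ)) (Int.natCast_dvd_natCast.2 h)
    rw [hn₂] at h1
    push_cast at h1
    generalize (q : ZMod 2) = x at h1; revert h1; revert x; decide)
  have d₂ : (b₂ : ℤ) ∣ 1 - (q : ℤ) ^ 2 + (q : ℤ) ^ 4 := by rw [← hn₂]; exact Int.natCast_dvd_natCast.2 hb₂m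
  obtain ⟨m₁, hm₁, -⟩ := exists_nat (z := 1 + (q : ℤ) ^ 3 + (q : ℤ) ^ 6) (by
    have h3 : (1 : ℤ) ≤ (q : ℤ) ^ 3 := one_le_pow₀ (by omega)
    have h4 : (1 : ℤ) ≤ (q : ℤ) ^ 6 := one_le_pow₀ (by omega)
    omega)
  obtain ⟨m₂, hm₂, -⟩ := exists_nat (z := (1 - (q : ℤ) ^ 2 + (q : ℤ) ^ 4) * (1 + (q : ℤ) + (q : ℤ) ^ 2)) (by
    have h1 : (4 : ℤ) ≤ (q : ℤ) ^ 2 := by nlinarith
    have h3 : (2 : ℤ) ≤ 1 - (q : ℤ) ^ 2 + (q : ℤ) ^ 4 := by nlinarith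
    nlinarith)
  exact ⟨b₁, b₂, hb₁, hb₂, hb₁2, hb₂2,
    ne_of_bez hb₁ (u := - (q : ℤ) ^ 3) (v := 1 + (q : ℤ) ^ 2 + (q : ℤ) ^ 3 + (q : ℤ) ^ 5) d₁ d₂ (by ring),
    reg_of_cycCard hb₁ (card_E6_9 hq hm₁ hb₁ d₁ hb₁3)
      (not_dvd_of hr hrq (Or.inl rfl) (a := (q : ℤ) ^ 2 + (q : ℤ) ^ 5) (by rw [hm₁]; ring)),
    reg_of_cycCard hb₂ (card_E6_12 hq hm₂ hb₂ d₂)
      (not_dvd_of hr hrq (Or.inl rfl) (a := 1 - (q : ℤ) ^ 2 + (q : ℤ) ^ 4 + (q : ℤ) ^ 5) (by rw [hm₂]; ring))⟩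

theorem e6 {F : Type} [Field F] [Fintype F] {r : ℕ} [CharP F r] (hpar : Par r ↥(chevE6.group F))
    (hX : 3 ∣ Fintype.card F - 1 → ∀ p : ℕ, p.Prime → p ≠ 2 → p ≠ 3 → p ≠ r → Reg r p ↥(chevE6.group F) →
      Trip p ↥(chevE6.group F)) : RowOdd ↥(chevE6.group F) := by
  have hr : r.Prime := CharP.char_is_prime F r
  obtain ⟨b₁, b₂, hb₁, hb₂, hb₁2, hb₂2, hne, h₁, h₂⟩ := reg_E6 (F := F) (r := r)
  have hm := Cfsg.Agent.H80.Fpf.multDvd_of_cyclic (Nat.gcd_pos_of_pos_left _ (by norm_num)).ne'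
    (Cfsg.Agent.S2105.result (F := F) rfl)
  exact rowOdd_of_par3 hr (lieType_E6 r) hpar even_E6 hm (fun s hs h =>
      Or.inr ((Nat.prime_dvd_prime_iff_eq hs Nat.prime_three).1 (h.trans (Nat.gcd_dvd_left _ _)))) hb₁ hb₂ hb₁2 hb₂2 hne
    h₁ h₂ fun h3 => hX (h3.trans (Nat.gcd_dvd_right _ _))

/-! ### `²E₆` -/

theorem lieType_TE6 {K : Type} [Field K] [Fintype K] {p q : ℕ} [CharP K p] (hq : IsPrimePow q)
    (hK : Fintype.card K = q ^ 2) : IsLieTypeChar p ↥(twistedE6 K q) :=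
  Or.inr (Or.inr (Or.inr (Or.inr (Or.inr (Or.inr (Or.inr (Or.inl ⟨K, inferInstance, inferInstance, inferInstance, q, hq,
    Or.inl ⟨hK, ⟨MulEquiv.refl _⟩⟩⟩)))))))

theorem even_TE6 {K : Type} [Field K] [Fintype K] {q : ℕ} (hq : IsPrimePow q) (hK : Fintype.card K = q ^ 2) :
    2 ∣ Nat.card ↥(twistedE6 K q) := by
  have h1 := Cfsg.Agent.S1066.result hq hK
  have h4 : 2 ∣ Nat.gcd 3 (q + 1) * Nat.card ↥(twistedE6 K q) := by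
    rw [h1]
    refine (two_dvd_sq q hq.two_le).trans
      ⟨q ^ 35 * ((q ^ 5 + 1) * (q ^ 6 - 1) * (q ^ 8 - 1) * (q ^ 9 + 1) * (q ^ 12 - 1)), ?_⟩
    ring
  refine (Nat.Prime.dvd_mul Nat.prime_two).1 h4 |>.resolve_left fun h => ?_
  have h5 := h.trans (Nat.gcd_dvd_left 3 (q + 1))
  norm_num at h5

/-- the two regular primes of `²E₆(q)` -/
theorem reg_TE6 {K : Type} [Field K] [Fintype K] {r q : ℕ} [CharP K r] (hq : IsPrimePow q)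
    (hK : Fintype.card K = q ^ 2) : ∃ b₁ b₂ : ℕ, b₁.Prime ∧ b₂.Prime ∧ b₁ ≠ 2 ∧
    b₂ ≠ 2 ∧ b₁ ≠ b₂ ∧ Reg r b₁ ↥(twistedE6 K q) ∧ Reg r b₂ ↥(twistedE6 K q) := by
  have hr : r.Prime := CharP.char_is_prime K r
  have hq2 : 2 ≤ q := hq.two_le
  have hrq : r ∣ q := hr.dvd_of_dvd_pow (dvd_q hK)
  have hqz : (2 : ℤ) ≤ q := by exact_mod_cast hq2
  obtain ⟨b₁, hb₁, -, d₁, hb₁2, hb₁3, -⟩ := Cfsg.Agent.H129.RealT.exists_prime18 hq2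
  obtain ⟨n₂, hn₂, h₂⟩ := exists_nat (z := 1 - (q : ℤ) ^ 2 + (q : ℤ) ^ 4) (by
    have h1 : (4 : ℤ) ≤ (q : ℤ) ^ 2 := by nlinarith
    nlinarith)
  obtain ⟨b₂, hb₂, hb₂m, hb₂2⟩ := exists_odd_prime h₂ (by
    intro h
    have h1 := zmod_of (r := 2) (z := (n₂ : ℤ)) (Int.natCast_dvd_natCast.2 h)
    rw [hn₂] at h1
    push_cast at h1
    generalize (q : ZMod 2) = x at h1; revert h1; revert x; decide)
  have d₂ : (b₂ : ℤ) ∣ 1 - (q : ℤ) ^ 2 + (q : ℤ) ^ 4 := by rw [← hn₂]; exact Int.natCast_dvd_natCast.2 hb₂m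
  obtain ⟨m₁, hm₁, -⟩ := exists_nat (z := 1 - (q : ℤ) ^ 3 + (q : ℤ) ^ 6) (by
    have h3 : (8 : ℤ) ≤ (q : ℤ) ^ 3 := by
      have := pow_le_pow_left₀ (by norm_num : (0 : ℤ) ≤ 2) hqz 3
      norm_num at this
      exact this
    have h4 : (q : ℤ) ^ 6 = (q : ℤ) ^ 3 * (q : ℤ) ^ 3 := by ring
    nlinarith)
  obtain ⟨m₂, hm₂, -⟩ := exists_nat (z := (1 - (q : ℤ) ^ 2 + (q : ℤ) ^ 4) * (1 - (q : ℤ) + (q : ℤ) ^ 2)) (by
    have h1 : (4 : ℤ) ≤ (q : ℤ) ^ 2 := by nlinarith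
    have h3 : (2 : ℤ) ≤ 1 - (q : ℤ) ^ 2 + (q : ℤ) ^ 4 := by nlinarith
    have h5 : (1 : ℤ) ≤ 1 - (q : ℤ) + (q : ℤ) ^ 2 := by nlinarith
    nlinarith)
  exact ⟨b₁, b₂, hb₁, hb₂, hb₁2, hb₂2,
    ne_of_bez hb₁ (u := (q : ℤ) ^ 3) (v := 1 + (q : ℤ) ^ 2 - (q : ℤ) ^ 3 - (q : ℤ) ^ 5) d₁ d₂ (by ring),
    reg_of_cycCard hb₁ (card_tE6_18 hq hK hm₁ hb₁ d₁ hb₁3)
      (not_dvd_of hr hrq (Or.inl rfl) (a := - (q : ℤ) ^ 2 + (q : ℤ) ^ 5) (by rw [hm₁]; ring)),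
    reg_of_cycCard hb₂ (card_tE6_12 hq hK hm₂ hb₂ d₂)
      (not_dvd_of hr hrq (Or.inl rfl) (a := -1 + (q : ℤ) ^ 2 - (q : ℤ) ^ 4 + (q : ℤ) ^ 5) (by rw [hm₂]; ring))⟩

theorem te6 {K : Type} [Field K] [Fintype K] {r q : ℕ} [CharP K r] (hq : IsPrimePow q)
    (hK : Fintype.card K = q ^ 2) (hpar : Par r ↥(twistedE6 K q))
    (hX : 3 ∣ q + 1 → ∀ p : ℕ, p.Prime → p ≠ 2 → p ≠ 3 → p ≠ r → Reg r p ↥(twistedE6 K q) →
      Trip p ↥(twistedE6 K q)) : RowOdd ↥(twistedE6 K q) := by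
  have hr : r.Prime := CharP.char_is_prime K r
  obtain ⟨b₁, b₂, hb₁, hb₂, hb₁2, hb₂2, hne, h₁, h₂⟩ := reg_TE6 (r := r) hq hK
  by_cases h2 : q = 2
  · subst h2
    have h0 := Cfsg.Agent.S2109.result (K := K) (by rw [hK]; norm_num)
    have hm := Cfsg.Agent.H80.Fpf.multDvd_of h0
    have hc : Nat.card (Multiplicative (ZMod 3 × ZMod 2 × ZMod 2)) = 12 := by
      rw [Nat.card_congr Multiplicative.toAdd, Nat.card_prod, Nat.card_prod, Nat.card_zmod, Nat.card_zmod]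
    rw [hc] at hm
    refine rowOdd_of_par3 hr (lieType_TE6 hq hK) hpar (even_TE6 hq hK) hm (fun s hs h => ?_) hb₁ hb₂ hb₁2 hb₂2 hne
      h₁ h₂ fun _ => hX (by norm_num)
    have h3 : s ∣ 2 * 2 * 3 := by norm_num; exact h
    rcases (Nat.Prime.dvd_mul hs).1 h3 with h4 | h4
    · rcases (Nat.Prime.dvd_mul hs).1 h4 with h5 | h5
      · exact Or.inl ((Nat.prime_dvd_prime_iff_eq hs Nat.prime_two).1 h5)
      · exact Or.inl ((Nat.prime_dvd_prime_iff_eq hs Nat.prime_two).1 h5)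
    · exact Or.inr ((Nat.prime_dvd_prime_iff_eq hs Nat.prime_three).1 h4)
  · have hm := Cfsg.Agent.H80.Fpf.multDvd_of_cyclic (Nat.gcd_pos_of_pos_left _ (by norm_num)).ne'
      (Cfsg.Agent.S2108.result hq hK h2)
    exact rowOdd_of_par3 hr (lieType_TE6 hq hK) hpar (even_TE6 hq hK) hm (fun s hs h =>
        Or.inr ((Nat.prime_dvd_prime_iff_eq hs Nat.prime_three).1 (h.trans (Nat.gcd_dvd_left _ _)))) hb₁ hb₂ hb₁2 hb₂2
      hne h₁ h₂ fun h3 => hX (h3.trans (Nat.gcd_dvd_right _ _))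

/-! ### the rows -/

theorem row_E6_of (hpar : ∀ (F : Type) [Field F] [Fintype F] (r : ℕ) [CharP F r], Par r ↥(chevE6.group F))
    (hX : ∀ (F : Type) [Field F] [Fintype F] (r : ℕ) [CharP F r], 3 ∣ Fintype.card F - 1 → ∀ p : ℕ, p.Prime → p ≠ 2 →
      p ≠ 3 → p ≠ r → Reg r p ↥(chevE6.group F) → Trip p ↥(chevE6.group F))
    {S : Type v} [Group S] (h : IsoChevE6 S) : RowOdd S := by
  obtain ⟨F, _, _, ⟨e⟩⟩ := h
  obtain ⟨r, _⟩ := CharP.exists F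
  exact (e6 (hpar F r) (hX F r)).congr e.symm

theorem row_2E6_of (hpar : ∀ (K : Type) [Field K] [Fintype K] (r q : ℕ) [CharP K r], IsPrimePow q →
      Fintype.card K = q ^ 2 → Par r ↥(twistedE6 K q))
    (hX : ∀ (K : Type) [Field K] [Fintype K] (r q : ℕ) [CharP K r], IsPrimePow q → Fintype.card K = q ^ 2 →
      3 ∣ q + 1 → ∀ p : ℕ, p.Prime → p ≠ 2 → p ≠ 3 → p ≠ r → Reg r p ↥(twistedE6 K q) → Trip p ↥(twistedE6 K q))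
    {S : Type v} [Group S] (h : Iso2E6 S) : RowOdd S := by
  obtain ⟨K, _, _, q, hq, hK, ⟨e⟩⟩ := h
  obtain ⟨r, _⟩ := CharP.exists K
  exact (te6 hq hK (hpar K r q hq hK) (hX K r q hq hK)).congr e.symm

end Cfsg.Agent.H934.PQR
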