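import Mathlib
import Cfsg.Agent.H934.PQR.RowsE6
import Cfsg.Agent.H274.Pqr.ParInst

/-!
# S3988: the rows `F₄(q)`, `E₇(q)`, `E₈(q)`, `E₆(q)`, `²E₆(q)` (helper934), with the parabolic lemma of helper274
-/

set_option autoImplicit false

namespace Cfsg.Agent.H934.PQR

open Cfsg Cfsg.Lie Subgroup Cfsg.Agent.H562.PQR

universe v

theorem par_f4 (F : Type) [Field F] [Fintype F] (r : ℕ) [CharP F r] : Par r ↥(chevF4.group F) :=
  fun _ hp hp2 _ hV1 hV hd => Cfsg.Agent.H274.Pqr.par_F4 hp hp2 hV hV1 hd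

theorem par_e6 (F : Type) [Field F] [Fintype F] (r : ℕ) [CharP F r] : Par r ↥(chevE6.group F) :=
  fun _ hp hp2 _ hV1 hV hd => Cfsg.Agent.H274.Pqr.par_E6 hp hp2 hV hV1 hd

theorem par_e7 (F : Type) [Field F] [Fintype F] (r : ℕ) [CharP F r] : Par r ↥(chevE7.group F) :=
  fun _ hp hp2 _ hV1 hV hd => Cfsg.Agent.H274.Pqr.par_E7 hp hp2 hV hV1 hd

theorem par_e8 (F : Type) [Field F] [Fintype F] (r : ℕ) [CharP F r] : Par r ↥(chevE8.group F) :=
  fun _ hp hp2 _ hV1 hV hd => Cfsg.Agent.H274.Pqr.par_E8 hp hp2 hV hV1 hd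

theorem par_te6 (K : Type) [Field K] [Fintype K] (r q : ℕ) [CharP K r] (hq : IsPrimePow q)
    (hK : Fintype.card K = q ^ 2) : Par r ↥(twistedE6 K q) :=
  fun _ hp hp2 _ hV1 hV hd => Cfsg.Agent.H274.Pqr.par_2E6 hq hK hp hp2 hV hV1 hd

/-- **The row `E₈(q)`.** -/
theorem row_E8 {S : Type v} [Group S] (h : IsoE8 S) : RowOdd S := row_E8_of par_e8 h

/-- **The row `E₇(q)`.** -/
theorem row_E7 {S : Type v} [Group S] (h : IsoE7 S) : RowOdd S := row_E7_of par_e7 h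

/-- **The row `F₄(q)`.** -/
theorem row_F4 {S : Type v} [Group S] (h : IsoF4 S) : RowOdd S := row_F4_of par_f4 h

/-- **The row `E₆(q)`**, from triples for the regular primes if `3 ∣ q - 1`. -/
theorem row_E6_of' (hX : ∀ (F : Type) [Field F] [Fintype F] (r : ℕ) [CharP F r], 3 ∣ Fintype.card F - 1 →
      ∀ p : ℕ, p.Prime → p ≠ 2 → p ≠ 3 → p ≠ r → Reg r p ↥(chevE6.group F) → Trip p ↥(chevE6.group F))
    {S : Type v} [Group S] (h : IsoChevE6 S) : RowOdd S := row_E6_of par_e6 hX h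

/-- **The row `²E₆(q)`**, from triples for the regular primes if `3 ∣ q + 1`. -/
theorem row_2E6_of' (hX : ∀ (K : Type) [Field K] [Fintype K] (r q : ℕ) [CharP K r], IsPrimePow q →
      Fintype.card K = q ^ 2 → 3 ∣ q + 1 → ∀ p : ℕ, p.Prime → p ≠ 2 → p ≠ 3 → p ≠ r → Reg r p ↥(twistedE6 K q) →
      Trip p ↥(twistedE6 K q))
    {S : Type v} [Group S] (h : Iso2E6 S) : RowOdd S := row_2E6_of par_te6 hX h

end Cfsg.Agent.H934.PQR
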