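import Mathlib
import Cfsg.Agent.H934.PQR.RowsE6
import Cfsg.Agent.H934.PQR.Cov
import Cfsg.Agent.H934.PQR.TorTwE6
import Cfsg.Agent.S1054
import Cfsg.Agent.S1070

/-!
# S3988: the triples of `E₆(q)`, `²E₆(q)` (helper934) if `3` divides the order of the multiplier
-/

set_option autoImplicit false

namespace Cfsg.Agent.H934.PQR

open Cfsg Cfsg.Lie Subgroup Cfsg.Agent.H562.PQR Cfsg.Agent.H129.CycCard Cfsg.Agent.H330.GowCover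
open Cfsg.Agent.H80.Fpf (MultDvd IsCover)

/-- `3` does not divide `q⁴ - q² + 1` -/
theorem ne_three_of {q b : ℕ} (d : (b : ℤ) ∣ 1 - (q : ℤ) ^ 2 + (q : ℤ) ^ 4) : b ≠ 3 := by
  rintro rfl
  have h1 := zmod_of (r := 3) (z := 1 - (q : ℤ) ^ 2 + (q : ℤ) ^ 4) d
  push_cast at h1
  generalize (q : ZMod 3) = x at h1; revert h1; revert x; decide

/-- the two regular primes of `E₆(q)`, both `≠ 3` -/
theorem reg_E6' {F : Type} [Field F] [Fintype F] {r : ℕ} [CharP F r] : ∃ b₁ b₂ : ℕ, b₁.Prime ∧ b₂.Prime ∧ b₁ ≠ 2 ∧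
    b₂ ≠ 2 ∧ b₁ ≠ 3 ∧ b₂ ≠ 3 ∧ b₁ ≠ b₂ ∧ Reg r b₁ ↥(chevE6.group F) ∧ Reg r b₂ ↥(chevE6.group F) := by
  have hr : r.Prime := CharP.char_is_prime F r
  obtain ⟨q, hq⟩ : ∃ q, Fintype.card F = q := ⟨_, rfl⟩
  have hq2 : 2 ≤ q := by rw [← hq]; exact Fintype.one_lt_card
  have hrq : r ∣ q := dvd_q hq
  have hqz : (2 : ℤ) ≤ q := by exact_mod_cast hq2
  obtain ⟨b₁, hb₁, -, d₁, hb₁2, hb₁3, -⟩ := Cfsg.Agent.H129.RealT.exists_prime9 hq2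
  obtain ⟨n₂, hn₂, h₂⟩ := exists_nat (z := 1 - (q : ℤ) ^ 2 + (q : ℤ) ^ 4) (by
    have h1 : (4 : ℤ) ≤ (q : ℤ) ^ 2 := by nlinarith
    nlinarith)
  obtain ⟨b₂, hb₂, hb₂m, hb₂2⟩ := exists_odd_prime h₂ (by
    intro h
    have h1 := zmod_of (r := 2) (z := (n₂ : ℤ)) (Int.natCast_dvd_natCast.2 h)
    rw [hn₂] at h1
    push_cast at h1
    generalize (q : ZMod 2) = x at h1; revert h1; revert x; decide)
  have d₂ : (b₂ : ℤ) ∣ 1 - (q : ℤ) ^ 2 + (q : ℤ) ^ 4 := by rw [← hn₂]; exact Int.natCast_dvd_natCast.2 hb₂m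
  obtain ⟨m₁, hm₁, -⟩ := exists_nat (z := 1 + (q : ℤ) ^ 3 + (q : ℤ) ^ 6) (by
    have h3 : (1 : ℤ) ≤ (q : ℤ) ^ 3 := one_le_pow₀ (by omega)
    have h4 : (1 : ℤ) ≤ (q : ℤ) ^ 6 := one_le_pow₀ (by omega)
    omega)
  obtain ⟨m₂, hm₂, -⟩ := exists_nat (z := (1 - (q : ℤ) ^ 2 + (q : ℤ) ^ 4) * (1 + (q : ℤ) + (q : ℤ) ^ 2)) (by
    have h1 : (4 : ℤ) ≤ (q : ℤ) ^ 2 := by nlinarith
    have h3 : (2 : ℤ) ≤ 1 - (q : ℤ) ^ 2 + (q : ℤ) ^ 4 := by nlinarith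
    nlinarith)
  exact ⟨b₁, b₂, hb₁, hb₂, hb₁2, hb₂2, hb₁3, ne_three_of d₂,
    ne_of_bez hb₁ (u := - (q : ℤ) ^ 3) (v := 1 + (q : ℤ) ^ 2 + (q : ℤ) ^ 3 + (q : ℤ) ^ 5) d₁ d₂ (by ring),
    reg_of_cycCard hb₁ (card_E6_9 hq hm₁ hb₁ d₁ hb₁3)
      (not_dvd_of hr hrq (Or.inl rfl) (a := (q : ℤ) ^ 2 + (q : ℤ) ^ 5) (by rw [hm₁]; ring)),
    reg_of_cycCard hb₂ (card_E6_12 hq hm₂ hb₂ d₂)
      (not_dvd_of hr hrq (Or.inl rfl) (a := 1 - (q : ℤ) ^ 2 + (q : ℤ) ^ 4 + (q : ℤ) ^ 5) (by rw [hm₂]; ring))⟩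

/-- the two regular primes of `²E₆(q)`, both `≠ 3` -/
theorem reg_TE6' {K : Type} [Field K] [Fintype K] {r q : ℕ} [CharP K r] (hq : IsPrimePow q)
    (hK : Fintype.card K = q ^ 2) : ∃ b₁ b₂ : ℕ, b₁.Prime ∧ b₂.Prime ∧ b₁ ≠ 2 ∧
    b₂ ≠ 2 ∧ b₁ ≠ 3 ∧ b₂ ≠ 3 ∧ b₁ ≠ b₂ ∧ Reg r b₁ ↥(twistedE6 K q) ∧ Reg r b₂ ↥(twistedE6 K q) := by
  have hr : r.Prime := CharP.char_is_prime K r
  have hq2 : 2 ≤ q := hq.two_le
  have hrq : r ∣ q := hr.dvd_of_dvd_pow (dvd_q hK)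
  have hqz : (2 : ℤ) ≤ q := by exact_mod_cast hq2
  obtain ⟨b₁, hb₁, -, d₁, hb₁2, hb₁3, -⟩ := Cfsg.Agent.H129.RealT.exists_prime18 hq2
  obtain ⟨n₂, hn₂, h₂⟩ := exists_nat (z := 1 - (q : ℤ) ^ 2 + (q : ℤ) ^ 4) (by
    have h1 : (4 : ℤ) ≤ (q : ℤ) ^ 2 := by nlinarith
    nlinarith)
  obtain ⟨b₂, hb₂, hb₂m, hb₂2⟩ := exists_odd_prime h₂ (by
    intro h
    have h1 := zmod_of (r := 2) (z := (n₂ : ℤ)) (Int.natCast_dvd_natCast.2 h)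
    rw [hn₂] at h1
    push_cast at h1
    generalize (q : ZMod 2) = x at h1; revert h1; revert x; decide)
  have d₂ : (b₂ : ℤ) ∣ 1 - (q : ℤ) ^ 2 + (q : ℤ) ^ 4 := by rw [← hn₂]; exact Int.natCast_dvd_natCast.2 hb₂m
  obtain ⟨m₁, hm₁, -⟩ := exists_nat (z := 1 - (q : ℤ) ^ 3 + (q : ℤ) ^ 6) (by
    have h3 : (8 : ℤ) ≤ (q : ℤ) ^ 3 := by
      have := pow_le_pow_left₀ (by norm_num : (0 : ℤ) ≤ 2) hqz 3
      norm_num at this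
      exact this
    have h4 : (q : ℤ) ^ 6 = (q : ℤ) ^ 3 * (q : ℤ) ^ 3 := by ring
    nlinarith)
  obtain ⟨m₂, hm₂, -⟩ := exists_nat (z := (1 - (q : ℤ) ^ 2 + (q : ℤ) ^ 4) * (1 - (q : ℤ) + (q : ℤ) ^ 2)) (by
    have h1 : (4 : ℤ) ≤ (q : ℤ) ^ 2 := by nlinarith
    have h3 : (2 : ℤ) ≤ 1 - (q : ℤ) ^ 2 + (q : ℤ) ^ 4 := by nlinarith
    have h5 : (1 : ℤ) ≤ 1 - (q : ℤ) + (q : ℤ) ^ 2 := by nlinarith
    nlinarith)
  exact ⟨b₁, b₂, hb₁, hb₂, hb₁2, hb₂2, hb₁3, ne_three_of d₂,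
    ne_of_bez hb₁ (u := (q : ℤ) ^ 3) (v := 1 + (q : ℤ) ^ 2 - (q : ℤ) ^ 3 - (q : ℤ) ^ 5) d₁ d₂ (by ring),
    reg_of_cycCard hb₁ (card_tE6_18 hq hK hm₁ hb₁ d₁ hb₁3)
      (not_dvd_of hr hrq (Or.inl rfl) (a := - (q : ℤ) ^ 2 + (q : ℤ) ^ 5) (by rw [hm₁]; ring)),
    reg_of_cycCard hb₂ (card_tE6_12 hq hK hm₂ hb₂ d₂)
      (not_dvd_of hr hrq (Or.inl rfl) (a := -1 + (q : ℤ) ^ 2 - (q : ℤ) ^ 4 + (q : ℤ) ^ 5) (by rw [hm₂]; ring))⟩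

theorem gcd_nine (n : ℕ) : ¬ 9 ∣ Nat.gcd 3 n := by
  intro h
  have := Nat.le_of_dvd (by norm_num) (h.trans (Nat.gcd_dvd_left 3 n))
  omega

/-- the triples of `²E₆(q)`, `3 ∣ q + 1` -/
theorem trip_2E6 (K : Type) [Field K] [Fintype K] (r q : ℕ) [CharP K r] (hq : IsPrimePow q)
    (hK : Fintype.card K = q ^ 2) (h3q : 3 ∣ q + 1) (p : ℕ) (hp : p.Prime) (hp2 : p ≠ 2) (hp3 : p ≠ 3)
    (_ : p ≠ r) (hx : Reg r p ↥(twistedE6 K q)) : Trip p ↥(twistedE6 K q) := by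
  have hr : r.Prime := CharP.char_is_prime K r
  have hrq : r ∣ q := hr.dvd_of_dvd_pow (dvd_q hK)
  have hr3 : r ≠ 3 := by
    rintro rfl
    have := (Nat.dvd_add_right hrq).1 h3q
    omega
  have hs : IsSimpleGroup ↥(twistedE6 K q) := (Cfsg.Agent.S1070.result hq hK).1
  obtain ⟨m, hm0, h9, hm, hm'⟩ : ∃ m : ℕ, m ≠ 0 ∧ ¬ 9 ∣ m ∧ MultDvd ↥(twistedE6 K q) m ∧
      ∀ s : ℕ, s.Prime → s ∣ m → s = 2 ∨ s = 3 := by
    by_cases h2 : q = 2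
    · subst h2
      have h0 := Cfsg.Agent.S2109.result (K := K) (by rw [hK]; norm_num)
      have hm := Cfsg.Agent.H80.Fpf.multDvd_of h0
      have hc : Nat.card (Multiplicative (ZMod 3 × ZMod 2 × ZMod 2)) = 12 := by
        rw [Nat.card_congr Multiplicative.toAdd, Nat.card_prod, Nat.card_prod, Nat.card_zmod, Nat.card_zmod]
      rw [hc] at hm
      refine ⟨12, by norm_num, by norm_num, hm, fun s hs h => ?_⟩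
      have h3 : s ∣ 2 * 2 * 3 := by norm_num; exact h
      rcases (Nat.Prime.dvd_mul hs).1 h3 with h4 | h4
      · rcases (Nat.Prime.dvd_mul hs).1 h4 with h5 | h5
        · exact Or.inl ((Nat.prime_dvd_prime_iff_eq hs Nat.prime_two).1 h5)
        · exact Or.inl ((Nat.prime_dvd_prime_iff_eq hs Nat.prime_two).1 h5)
      · exact Or.inr ((Nat.prime_dvd_prime_iff_eq hs Nat.prime_three).1 h4)
    · exact ⟨Nat.gcd 3 (q + 1), (Nat.gcd_pos_of_pos_left _ (by norm_num)).ne', gcd_nine _,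
        Cfsg.Agent.H80.Fpf.multDvd_of_cyclic (Nat.gcd_pos_of_pos_left _ (by norm_num)).ne'
          (Cfsg.Agent.S2108.result hq hK h2), fun s hs h =>
        Or.inr ((Nat.prime_dvd_prime_iff_eq hs Nat.prime_three).1 (h.trans (Nat.gcd_dvd_left _ _)))⟩
  have hT : ∀ (Γ : Type) [Group Γ] [Finite Γ] (π : Γ →* ↥(twistedE6 K q)), IsCover π → Nat.card π.ker = 3 →
      TorAb r π := fun Γ _ _ π hπ h3 => TorTwE6.torAb hq hK hπ (by rw [h3]; decide)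
  obtain ⟨b₁, b₂, hb₁, hb₂, hb₁2, hb₂2, hb₁3, hb₂3, hne, h₁, h₂⟩ := reg_TE6' (r := r) hq hK
  by_cases hpb : p = b₁
  · subst hpb
    exact trip_three hr hr3 (lieType_TE6 hq hK) hp hb₂ hp2 hb₂2 hp3 hb₂3 hne (even_TE6 hq hK) hx h₂ hm0 h9 hm hm' hT
  · exact trip_three hr hr3 (lieType_TE6 hq hK) hp hb₁ hp2 hb₁2 hp3 hb₁3 hpb (even_TE6 hq hK) hx h₁ hm0 h9 hm hm' hT

/-- the triples of `E₆(q)`, `3 ∣ q - 1`, the torus of the triple cover being abelian -/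
theorem trip_E6 (F : Type) [Field F] [Fintype F] (r : ℕ) [CharP F r]
    (hT : ∀ (Γ : Type) [Group Γ] [Finite Γ] (π : Γ →* ↥(chevE6.group F)), IsCover π → Nat.card π.ker = 3 →
      TorAb r π) (h3q : 3 ∣ Fintype.card F - 1) (p : ℕ) (hp : p.Prime) (hp2 : p ≠ 2) (hp3 : p ≠ 3)
    (_ : p ≠ r) (hx : Reg r p ↥(chevE6.group F)) : Trip p ↥(chevE6.group F) := by
  have hr : r.Prime := CharP.char_is_prime F r
  have hrq : r ∣ Fintype.card F := dvd_q rfl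
  have hr3 : r ≠ 3 := by
    rintro rfl
    have hq2 : 2 ≤ Fintype.card F := Fintype.one_lt_card
    omega
  have hs : IsSimpleGroup ↥(chevE6.group F) := (Cfsg.Agent.S1054.result (F := F) chevE6 (by simp)).1
  have hm := Cfsg.Agent.H80.Fpf.multDvd_of_cyclic (Nat.gcd_pos_of_pos_left _ (by norm_num)).ne'
    (Cfsg.Agent.S2105.result (F := F) rfl)
  have hm' : ∀ s : ℕ, s.Prime → s ∣ Nat.gcd 3 (Fintype.card F - 1) → s = 2 ∨ s = 3 := fun s hs h =>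
      Or.inr ((Nat.prime_dvd_prime_iff_eq hs Nat.prime_three).1 (h.trans (Nat.gcd_dvd_left _ _)))
  have hm0 : Nat.gcd 3 (Fintype.card F - 1) ≠ 0 := (Nat.gcd_pos_of_pos_left _ (by norm_num)).ne'
  obtain ⟨b₁, b₂, hb₁, hb₂, hb₁2, hb₂2, hb₁3, hb₂3, hne, h₁, h₂⟩ := reg_E6' (F := F) (r := r)
  by_cases hpb : p = b₁
  · subst hpb
    exact trip_three hr hr3 (lieType_E6 r) hp hb₂ hp2 hb₂2 hp3 hb₂3 hne even_E6 hx h₂ hm0 (gcd_nine _) hm hm' hT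
  · exact trip_three hr hr3 (lieType_E6 r) hp hb₁ hp2 hb₁2 hp3 hb₁3 hpb even_E6 hx h₁ hm0 (gcd_nine _) hm hm' hT

end Cfsg.Agent.H934.PQR
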