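import Mathlib
import Cfsg.Agent.H934.PQR.TorGen
import Cfsg.Agent.H330.GowCover
import Cfsg.Agent.H155.TG.Chev
import Cfsg.Agent.ChevalleyStructure.HMatDiagAll

/-!
# The torus of the Chevalley groups `D.group K` (helper934)

`torAb_E6` : the preimage of the torus in a cover of `E₆(q)` with kernel of odd order is abelian.
-/

set_option autoImplicit false
set_option linter.unusedSectionVars false
set_option maxHeartbeats 400000

namespace Cfsg.Agent.H934.PQR.TorChev

open CoxeterSystem Cfsg.Agent.ChevalleyStructure.CoxeterGeom Cfsg.Agent.Tits.Roots Cfsg.Agent.Tits.Core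
  Cfsg.Agent.Nodes.Reps Cfsg.Agent.Nodes.BNOf
  Cfsg.Agent.Nodes.OppDec Cfsg.Agent.Nodes.RGDChev Cfsg.Agent.KFacts.RgdOpp
  Cfsg.Agent.KFacts.RgdAut Cfsg.Agent.KFacts.RgdDiag Cfsg.Agent.KFacts.RgdRigid
  Cfsg.Agent.KFacts.RgdField Cfsg.Agent.KFacts.RgdTau Cfsg.Agent.KFacts.RgdChevCoord
open Cfsg.Lie Cfsg.Agent.ChevalleyStructure Cfsg.Agent.ChevalleyStructure.Elts
  Cfsg.Agent.ChevalleyStructure.RootVec Cfsg.Agent.ChevalleyStructure.RootVecTab
  Cfsg.Agent.ChevalleyStructure.NPerm Cfsg.Agent.ChevalleyStructure.CoxeterGeomTypes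
open Cfsg.Agent.Nodes.RGDFoldSL (wS hS)
open Cfsg.Agent.ChevalleyStructure.SL2Hom (up lo)
open Cfsg.Agent.H934.PQR.TorGen Cfsg.Agent.H330.GowCover
open Cfsg.Agent.H155.TG (exists_phi sH)

universe u

variable {D : ChevalleyDatum} {l : ℕ} {M : CoxeterMatrix (Fin l)} (hp : IsType D l M) {K : Type u} [Field K]

/-- the homomorphism of the node `i` -/
theorem exists_node (i : Fin l) : ∃ Ψ : Matrix.SpecialLinearGroup (Fin 2) K →* ↥(D.group K),
    Node (TT D K) (nc hp K) (XX D l K) i Ψ := by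
  obtain ⟨φ, h1, h2, h3⟩ := exists_phi (K := K) hp i
  have h1' : ∀ s : K, φ (up s) = xG hp.inList (D.simple i) s := h1
  have h2' : ∀ s : K, φ (lo s) = xG hp.inList (D.neg (D.simple i)) s := h2
  have hm : ∀ g, φ g ∈ D.group K := by
    intro g
    have h4 : Subgroup.closure (Set.range (up (F := K)) ∪ Set.range (lo (F := K))) ≤ (D.group K).comap φ := by
      rw [Subgroup.closure_le]
      rintro _ (⟨t, rfl⟩ | ⟨t, rfl⟩)
      · show φ (up t) ∈ D.group K
        rw [h1']
        exact xG_mem_group hp.inList _ t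
      · show φ (lo t) ∈ D.group K
        rw [h2']
        exact xG_mem_group hp.inList _ t
    exact h4 (SL2Hom.mem_closure_SL2 g)
  refine ⟨φ.codRestrict (D.group K) hm, ⟨fun u => ?_, ?_, fun c => ?_⟩⟩
  · show u ∈ (XV D l K (sr i)).subgroupOf (D.group K) ↔ _
    rw [Subgroup.mem_subgroupOf, XV_sr hp, mem_rootSubgroup_iff hp.inList]
    constructor
    · rintro ⟨t, ht⟩
      refine ⟨t, Subtype.ext ?_⟩
      show _ = φ (up t)
      rw [h1']
      exact ht
    · rintro ⟨t, rfl⟩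
      exact ⟨t, h1' t⟩
  · apply Subtype.ext
    show φ (up 1 * (lo (-1⁻¹) * up 1)) = nG hp.inList (D.simple i) 1
    rw [map_mul, map_mul, h1', h2', nG_def]
  · show φ (tau c) ∈ D.diagonalSubgroup K
    rw [tau_eq]
    have h5 : φ (hS (c : K)) = hG hp.inList (D.simple i) (c : K) := h3 c
    rw [h5]
    exact hG_mem_diagonal hp.inList (simple_lt hp.inList (lt_rank hp i)) c.ne_zero

theorem tab {D : ChevalleyDatum} (hD : D ∈ [chevD4, chevF4, chevE6, chevE7, chevE8]) {K : Type u} [Field K] {s t : GL D.Idx K} (hs : s ∈ D.diagonalSubgroup K)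
    (ht : t ∈ D.diagonalSubgroup K) : s * t = t * s := by
  obtain ⟨χ, h1⟩ := HMatDiagAll.diagonalSubgroup_le_torus (D := D) (by simp at hD ⊢; tauto) hs
  obtain ⟨ψ, h2⟩ := HMatDiagAll.diagonalSubgroup_le_torus (D := D) (by simp at hD ⊢; tauto) ht
  apply Units.ext
  rw [Units.val_mul, Units.val_mul, h1, h2, Matrix.diagonal_mul_diagonal, Matrix.diagonal_mul_diagonal]
  congr 1
  funext i
  exact mul_comm _ _

include hp in
theorem torAb [Nonempty (Fin l)] (hD : D ∈ [chevD4, chevF4, chevE6, chevE7, chevE8]) {K : Type} [Field K] [Finite K] {r : ℕ}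
    [CharP K r] [IsSimpleGroup ↥(D.group K)] {Γ : Type*} [Group Γ] [Finite Γ] {π : Γ →* ↥(D.group K)}
    (hπ : H80.Fpf.IsCover π) (hodd : Odd (Nat.card π.ker)) : TorAb r π := by
  classical
  have hr : r.Prime := CharP.char_is_prime K r
  have : Fact r.Prime := ⟨hr⟩
  have : Finite M.Group := finite_W hp M.toCoxeterSystem
  have R := rgd (K := K) hp M.toCoxeterSystem r
  have hG : RGD.Sup (XX D l K) {x | IsRoot M.toCoxeterSystem hp.isCartan x} = ⊤ := G1_eq_top hp M.toCoxeterSystem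
  choose Ψ N using fun i => exists_node hp (K := K) i
  refine TorAb.of_rgd hr R hG hπ hodd (fun i => AA (Ψ i)) (nc hp K)
    (T_eq_iSup R hG Ψ N) (fun i => cyclic_AA _) ?_ (fun i s hs => (N i).inv hs) (fun i t ht => (N i).comm_mem R ht)
  intro s hs t ht
  exact Subtype.ext (tab hD hs ht)

end Cfsg.Agent.H934.PQR.TorChev
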