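import Mathlib
import Cfsg.Agent.H934.PQR.Final
import Cfsg.Agent.H934.PQR.RowsX
import Cfsg.Agent.H934.PQR.TorChev

/-!
# S3988: the rows `E₆(q)`, `²E₆(q)` (helper934)
-/

set_option autoImplicit false

namespace Cfsg.Agent.H934.PQR

open Cfsg Cfsg.Lie Subgroup Cfsg.Agent.H562.PQR
open Cfsg.Agent.H80.Fpf (IsCover)

universe v

/-- **The row `E₆(q)`.** -/
theorem row_E6 {S : Type v} [Group S] (h : IsoChevE6 S) : RowOdd S := by
  refine row_E6_of' (fun F _ _ r _ => ?_) h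
  have hs : IsSimpleGroup ↥(chevE6.group F) := (Cfsg.Agent.S1054.result (F := F) chevE6 (by simp)).1
  exact trip_E6 F r fun Γ _ _ π hπ h3 =>
    TorChev.torAb (M := CoxeterMatrix.E₆) (by simp [Nodes.RGDChev.IsType, Nodes.RGDChev.typeList]) (by simp) hπ
      (by rw [h3]; decide)

/-- **The row `²E₆(q)`.** -/
theorem row_2E6 {S : Type v} [Group S] (h : Iso2E6 S) : RowOdd S := row_2E6_of' trip_2E6 h

end Cfsg.Agent.H934.PQR
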